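import Cfsg.Agent.R2.T1.N6D.Dim

/-!
# S5929, `n = 6`, `p = 2`: INEQ (proof by helper9, helper25)

* `ineq6` : `4 (dim M^a + dim M^b) + 12 dim M^c ≤ 5 dim M` for the modules of `A₆` in characteristic 2 without trivial
  submodules and quotients;
* `low6` : `dim M ≤ 2 (dim M^a + dim M^b)`.
-/

set_option autoImplicit false
set_option maxRecDepth 100000

namespace Cfsg.Agent.R2.T1.N6D.I2

open Module Equiv Equiv.Perm
open Cfsg.Agent.R2.T1
open Cfsg.Agent.H952.F4 (ev)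

universe u v

/-- `(2 3)(4 5)` -/
def pr : ↥(alternatingGroup (Fin 6)) := ⟨swap 2 3 * swap 4 5, mem_alternatingGroup.2 (by decide)⟩
/-- `(1 4)(2 5)` -/
def pw : ↥(alternatingGroup (Fin 6)) := ⟨swap 1 4 * swap 2 5, mem_alternatingGroup.2 (by decide)⟩

theorem pa3 : pa * pa * pa = 1 := by apply Subtype.ext; decide +kernel
theorem pa'3 : pa' * pa' * pa' = 1 := by apply Subtype.ext; decide +kernel
theorem pcomm : pa * pa' = pa' * pa := by apply Subtype.ext; decide +kernel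
theorem py_a : py * pa * py⁻¹ = pa' := by apply Subtype.ext; decide +kernel
theorem py_a' : py * pa' * py⁻¹ = pa * pa := by apply Subtype.ext; decide +kernel
theorem py4 : py * py * (py * py) = 1 := by apply Subtype.ext; decide +kernel
theorem pys_a : py * py * pa = pa * pa * (py * py) := by apply Subtype.ext; decide +kernel
theorem pys_a' : py * py * pa' = pa' * pa' * (py * py) := by apply Subtype.ext; decide +kernel
theorem pw2 : pw * pw = 1 := by apply Subtype.ext; decide +kernel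
theorem pw_y : py * pw = pw * (py * py * py) := by apply Subtype.ext; decide +kernel
theorem z5_word : z5 = pa' * (pw * pa * pw) * (pw * pa * pw) * pa := by apply Subtype.ext; decide +kernel
theorem x2_word : x2 = pa' * pa' := by apply Subtype.ext; decide +kernel

/-- the representatives of the cosets of `Y` -/
def rep (k : Fin 10) : ↥(alternatingGroup (Fin 6)) := z5 ^ (k.val % 5) * pr ^ (k.val / 5)

/-- the elements of `Y` -/
def wy (e : ℕ × ℕ × ℕ) : ↥(alternatingGroup (Fin 6)) := pa ^ e.1 * pa' ^ e.2.1 * py ^ e.2.2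

def piF : Fin 10 → Fin 10 := ![0, 6, 5, 1, 2, 4, 3, 9, 7, 8]
def piG : Fin 10 → Fin 10 := ![0, 3, 4, 6, 5, 2, 1, 8, 9, 7]
def piW : Fin 10 → ℕ × ℕ × ℕ := ![(0, 1, 0), (0, 1, 0), (0, 0, 3), (0, 0, 3), (0, 2, 1), (1, 0, 0), (1, 0, 1), (2, 1, 0),
  (2, 0, 1), (2, 1, 3)]

def piE : Perm (Fin 10) := ⟨piF, piG, by decide, by decide⟩

theorem tab (k : Fin 10) : pa' * rep k = rep (piF k) * wy (piW k) := by
  apply Subtype.ext
  revert k
  decide +kernel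

/-- the tables for `g_A e₁ w`, `g_B e₂ w` -/
theorem tabA : gA * pa' * pw = rep 5 * wy (0, 1, 2) ∧ gA * (pa' * pa') * pw = rep 2 * wy (1, 0, 1) ∧
    gA * (pa * pa') * pw = rep 1 * wy (1, 2, 0) ∧ gA * (pa * (pa' * pa')) * pw = rep 3 * wy (0, 1, 3) ∧
    gA * (pa * pa * pa') * pw = rep 8 * wy (1, 1, 2) ∧ gA * (pa * pa * (pa' * pa')) * pw = rep 7 * wy (1, 0, 3) := by
  refine ⟨?_, ?_, ?_, ?_, ?_, ?_⟩ <;> apply Subtype.ext <;> decide +kernel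

theorem tabB : gB * pa' * pw = rep 7 * wy (2, 0, 0) ∧ gB * (pa' * pa') * pw = rep 3 * wy (2, 1, 0) ∧
    gB * (pa * pa' * pa') * pw = rep 0 * wy (2, 2, 1) ∧ gB * (pa * pa' * (pa' * pa')) * pw = rep 5 * wy (2, 1, 1) ∧
    gB * (pa * pa' * (pa * pa') * pa') * pw = rep 6 * wy (0, 0, 2) ∧
    gB * (pa * pa' * (pa * pa') * (pa' * pa')) * pw = rep 1 * wy (0, 0, 0) := by
  refine ⟨?_, ?_, ?_, ?_, ?_, ?_⟩ <;> apply Subtype.ext <;> decide +kernel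

section
variable {F : Type u} [Field F] {M : Type v} [AddCommGroup M] [Module F M]
  (ρ : Representation F ↥(alternatingGroup (Fin 6)) M)

theorem rm (x y : ↥(alternatingGroup (Fin 6))) (m : M) : ρ (x * y) m = ρ x (ρ y m) := by
  rw [map_mul, Module.End.mul_apply]

theorem r1 (m : M) : ρ 1 m = m := by rw [map_one, Module.End.one_apply]

theorem fixp {x : ↥(alternatingGroup (Fin 6))} {v : M} (h : ρ x v = v) (k : ℕ) : ρ (x ^ k) v = v := by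
  induction k with
  | zero => rw [pow_zero, r1]
  | succ k ih => rw [pow_succ, rm, h, ih]

/-- `v` is fixed by `Y` -/
def FY (v : M) : Prop := ρ pa v = v ∧ ρ pa' v = v ∧ ρ py v = v

theorem FY.wy {v : M} (h : FY ρ v) (e : ℕ × ℕ × ℕ) : ρ (wy e) v = v := by
  unfold I2.wy
  rw [rm, rm, fixp ρ h.2.2, fixp ρ h.2.1, fixp ρ h.1]

theorem sum_rep (v : M) : ∑ k : Fin 10, ρ (rep k) v = Ec ρ v + Ec ρ (ρ pr v) := by
  unfold rep Ec
  rw [Fin.sum_univ_eq_sum_range (fun k => ρ (z5 ^ (k % 5) * pr ^ (k / 5)) v) 10]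
  simp only [Finset.sum_range_succ, Finset.sum_range_zero, zero_add]
  norm_num
  abel

theorem fix_all {v : M} (h1 : ρ z5 v = v) (h2 : ρ x2 v = v) (g : ↥(alternatingGroup (Fin 6))) : ρ g v = v := by
  let K : Subgroup ↥(alternatingGroup (Fin 6)) :=
    { carrier := {x | ρ x v = v}
      one_mem' := r1 ρ v
      mul_mem' := by
        intro x y hx hy
        show ρ (x * y) v = v
        rw [rm, show ρ y v = v from hy, show ρ x v = v from hx]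
      inv_mem' := by
        intro x hx
        show ρ x⁻¹ v = v
        conv_lhs => rw [← show ρ x v = v from hx]
        rw [← rm, inv_mul_cancel, r1] }
  exact gen (H := K) h1 h2 g

/-- the sums over the two orbits agree -/
theorem sum_zero (hinv : ρ.invariants = ⊥) {v : M} (hv : FY ρ v) : ∑ k : Fin 10, ρ (rep k) v = 0 := by
  have h1 : ρ z5 (∑ k : Fin 10, ρ (rep k) v) = ∑ k : Fin 10, ρ (rep k) v := by
    rw [sum_rep, map_add, ← Module.End.mul_apply, ← Module.End.mul_apply, mul_Ec]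
  have h2 : ρ pa' (∑ k : Fin 10, ρ (rep k) v) = ∑ k : Fin 10, ρ (rep k) v := by
    rw [map_sum]
    have h3 : ∀ k : Fin 10, ρ pa' (ρ (rep k) v) = ρ (rep (piE k)) v := by
      intro k
      rw [← rm, tab, rm, hv.wy]
      rfl
    rw [Finset.sum_congr rfl fun k _ => h3 k]
    exact Equiv.sum_comp piE fun k => ρ (rep k) v
  have h3 : ∑ k : Fin 10, ρ (rep k) v ∈ ρ.invariants := by
    rw [Representation.mem_invariants]
    refine fix_all ρ h1 ?_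
    rw [x2_word, rm, h2, h2]
  rw [hinv, Submodule.mem_bot] at h3
  exact h3

theorem Ec_rep (h2 : (2 : F) = 0) (hinv : ρ.invariants = ⊥) {v : M} (hv : FY ρ v) (k : Fin 10) (e : ℕ × ℕ × ℕ) :
    Ec ρ (ρ (rep k * I2.wy e) v) = Ec ρ v := by
  rw [rm, hv.wy]
  have h1 := sum_zero ρ hinv hv
  rw [sum_rep] at h1
  have h3 : Ec ρ (ρ pr v) = Ec ρ v := by
    have h4 := eq_neg_of_add_eq_zero_right h1
    rwa [neg0 h2] at h4
  unfold rep
  rw [rm, Ec_apply]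
  have h5 : k.val / 5 = 0 ∨ k.val / 5 = 1 := by omega
  rcases h5 with h5 | h5
  · rw [h5, pow_zero, r1]
  · rw [h5, pow_one, h3]

theorem E1_apply (m : M) : E1 ρ m = ρ pa' m + ρ (pa' * pa') m + ρ (pa * pa') m + ρ (pa * (pa' * pa')) m +
    ρ (pa * pa * pa') m + ρ (pa * pa * (pa' * pa')) m := by
  unfold E1
  simp only [Module.End.mul_apply, LinearMap.add_apply, Module.End.one_apply, map_add, rm]
  abel

theorem E2_apply (m : M) : E2 ρ m = ρ pa' m + ρ (pa' * pa') m + ρ (pa * pa' * pa') m + ρ (pa * pa' * (pa' * pa')) m +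
    ρ (pa * pa' * (pa * pa') * pa') m + ρ (pa * pa' * (pa * pa') * (pa' * pa')) m := by
  unfold E2
  simp only [Module.End.mul_apply, LinearMap.add_apply, Module.End.one_apply, map_add, rm]
  abel

theorem cst (h2 : (2 : F) = 0) (hinv : ρ.invariants = ⊥) {v : M} (hv : FY ρ v) {g x : ↥(alternatingGroup (Fin 6))}
    {k : Fin 10} {e : ℕ × ℕ × ℕ} (ht : g * x * pw = rep k * I2.wy e) : Ec ρ (ρ g (ρ x (ρ pw v))) = Ec ρ v := by
  rw [← rm, ← rm, ht, Ec_rep ρ h2 hinv hv]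

theorem kerA (h2 : (2 : F) = 0) (hinv : ρ.invariants = ⊥) {v : M} (hv : FY ρ v) :
    Ec ρ (ρ gA (E1 ρ (ρ pw v))) = 0 := by
  obtain ⟨t1, t2, t3, t4, t5, t6⟩ := tabA
  rw [E1_apply]
  simp only [map_add]
  rw [cst ρ h2 hinv hv t1, cst ρ h2 hinv hv t2, cst ρ h2 hinv hv t3, cst ρ h2 hinv hv t4, cst ρ h2 hinv hv t5,
    cst ρ h2 hinv hv t6, two0 h2, zero_add, two0 h2, zero_add, two0 h2]

theorem kerB (h2 : (2 : F) = 0) (hinv : ρ.invariants = ⊥) {v : M} (hv : FY ρ v) :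
    Ec ρ (ρ gB (E2 ρ (ρ pw v))) = 0 := by
  obtain ⟨t1, t2, t3, t4, t5, t6⟩ := tabB
  rw [E2_apply]
  simp only [map_add]
  rw [cst ρ h2 hinv hv t1, cst ρ h2 hinv hv t2, cst ρ h2 hinv hv t3, cst ρ h2 hinv hv t4, cst ρ h2 hinv hv t5,
    cst ρ h2 hinv hv t6, two0 h2, zero_add, two0 h2, zero_add, two0 h2]

/-- `w v` is fixed by `a` if `e₁`, `e₂` kill it -/
theorem fix_w (h2 : (2 : F) = 0) {u' : M} (hy : ρ py u' = u') (h1 : E1 ρ u' = 0) (h3 : E2 ρ u' = 0) :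
    ρ pa u' = u' := by
  have hA : ∀ m, ρ pa (ρ pa (ρ pa m)) = m := fun m => by rw [← rm, ← rm, pa3, r1]
  have hA' : ∀ m, ρ pa' (ρ pa' (ρ pa' m)) = m := fun m => by rw [← rm, ← rm, pa'3, r1]
  have hc : ∀ m, ρ pa' (ρ pa m) = ρ pa (ρ pa' m) := fun m => by rw [← rm, ← rm, pcomm]
  have ya : ∀ m, ρ py (ρ pa m) = ρ pa' (ρ py m) := fun m => by
    rw [← rm, ← rm, ← py_a, inv_mul_cancel_right]
  have ya' : ∀ m, ρ py (ρ pa' m) = ρ pa (ρ pa (ρ py m)) := fun m => by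
    rw [← rm, ← rm, ← rm, ← py_a', inv_mul_cancel_right]
  rw [E1_apply] at h1
  rw [E2_apply] at h3
  have h4 := congrArg (ρ py) h1
  have h5 := congrArg (ρ py) h3
  simp only [rm, map_add, map_zero, ya, ya', hy, hc, hA, hA'] at h1 h3 h4 h5
  have h6 : ρ pa u' + ρ pa (ρ pa u') + ρ pa' u' + ρ pa' (ρ pa' u') + ρ pa (ρ pa' u') + ρ pa (ρ pa (ρ pa' u')) +
      ρ pa (ρ pa' (ρ pa' u')) + ρ pa (ρ pa (ρ pa' (ρ pa' u'))) = 0 := by
    set S8 := ρ pa u' + ρ pa (ρ pa u') + ρ pa' u' + ρ pa' (ρ pa' u') + ρ pa (ρ pa' u') + ρ pa (ρ pa (ρ pa' u')) +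
      ρ pa (ρ pa' (ρ pa' u')) + ρ pa (ρ pa (ρ pa' (ρ pa' u'))) with hS
    have h7 : S8 + S8 + S8 = 0 := by
      rw [hS]
      have h8 := congrArg₂ (· + ·) (congrArg₂ (· + ·) h1 h3) (congrArg₂ (· + ·) h4 h5)
      simp only [add_zero] at h8
      rw [← h8]
      abel
    rwa [two0 h2, zero_add] at h7
  have h7 := congrArg (fun x => ρ pa (u' + x)) h6
  simp only [map_add, add_zero, hA] at h7
  rw [← h7]
  have h8 : u' = u' + (ρ pa u' + ρ pa (ρ pa u') + ρ pa' u' + ρ pa' (ρ pa' u') + ρ pa (ρ pa' u') +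
      ρ pa (ρ pa (ρ pa' u')) + ρ pa (ρ pa' (ρ pa' u')) + ρ pa (ρ pa (ρ pa' (ρ pa' u')))) := by rw [h6, add_zero]
  conv_rhs => rw [h8]
  abel

/-- the idempotent for `b` -/
noncomputable def EE (b : ↥(alternatingGroup (Fin 6))) : Module.End F M :=
  (1 + ρ b + ρ (b * b)) * (ρ pa' + ρ (pa' * pa'))

/-- the space for `b` -/
def SS (b : ↥(alternatingGroup (Fin 6))) : Submodule F M := Fx (ρ b) ⊓ Kp (ρ pa') ⊓ Fx (ρ (py * py))

theorem EE_apply (b : ↥(alternatingGroup (Fin 6))) (m : M) : EE ρ b m = ρ pa' m + ρ pa' (ρ pa' m) + ρ b (ρ pa' m) +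
    ρ b (ρ pa' (ρ pa' m)) + ρ b (ρ b (ρ pa' m)) + ρ b (ρ b (ρ pa' (ρ pa' m))) := by
  unfold EE
  simp only [Module.End.mul_apply, LinearMap.add_apply, Module.End.one_apply, map_add, rm]
  abel

variable {b : ↥(alternatingGroup (Fin 6))} (hb3 : b * b * b = 1) (hbc : b * pa' = pa' * b)
  (hbs : py * py * b = b * b * (py * py))

include hb3 in
theorem b3 (m : M) : ρ b (ρ b (ρ b m)) = m := by rw [← rm, ← rm, hb3, r1]

theorem a3' (m : M) : ρ pa' (ρ pa' (ρ pa' m)) = m := by rw [← rm, ← rm, pa'3, r1]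

include hbc in
theorem bc (m : M) : ρ pa' (ρ b m) = ρ b (ρ pa' m) := by rw [← rm, ← rm, hbc]

include hbs in
theorem sb (m : M) : ρ (py * py) (ρ b m) = ρ b (ρ b (ρ (py * py) m)) := by
  rw [← rm, ← rm, ← rm, hbs]

theorem sa' (m : M) : ρ (py * py) (ρ pa' m) = ρ pa' (ρ pa' (ρ (py * py) m)) := by
  rw [← rm, ← rm, ← rm, pys_a']

include hb3 hbs in
theorem EE_comm (m : M) : ρ (py * py) (EE ρ b m) = EE ρ b (ρ (py * py) m) := by
  simp only [EE_apply, map_add, sb ρ hbs, sa' ρ, b3 ρ hb3]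
  simp only [a3' ρ]
  abel

include hb3 hbc hbs in
/-- the images of fixed vectors -/
theorem EE_mem (h2 : (2 : F) = 0) {m : M} (hm : ρ (py * py) m = m) : EE ρ b m ∈ SS ρ b := by
  refine ⟨⟨?_, ?_⟩, ?_⟩
  · show _ ∈ Fx _
    rw [mem_Fx, EE_apply]
    simp only [map_add, b3 ρ hb3]
    abel
  · show _ ∈ Kp _
    rw [mem_Kp]
    have e : EE ρ b m + ρ pa' (EE ρ b m) + ρ pa' (ρ pa' (EE ρ b m)) =
        (m + ρ pa' m + ρ pa' (ρ pa' m) + ρ b m + ρ b (ρ pa' m) + ρ b (ρ pa' (ρ pa' m)) + ρ b (ρ b m) +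
          ρ b (ρ b (ρ pa' m)) + ρ b (ρ b (ρ pa' (ρ pa' m)))) +
        (m + ρ pa' m + ρ pa' (ρ pa' m) + ρ b m + ρ b (ρ pa' m) + ρ b (ρ pa' (ρ pa' m)) + ρ b (ρ b m) +
          ρ b (ρ b (ρ pa' m)) + ρ b (ρ b (ρ pa' (ρ pa' m)))) := by
      rw [EE_apply]
      simp only [map_add, bc ρ hbc, a3' ρ]
      abel
    rw [e, two0 h2]
  · show _ ∈ Fx _
    rw [mem_Fx, EE_comm ρ hb3 hbs, hm]

include hb3 hbc hbs in
theorem Q_mem (h2 : (2 : F) = 0) (m : M) : ((1 + ρ (py * py)) * EE ρ b) m ∈ SS ρ b := by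
  have h1 : ((1 + ρ (py * py)) * EE ρ b) m = EE ρ b (m + ρ (py * py) m) := by
    rw [Module.End.mul_apply, LinearMap.add_apply, Module.End.one_apply, EE_comm ρ hb3 hbs, map_add]
  rw [h1]
  refine EE_mem ρ hb3 hbc hbs h2 ?_
  rw [map_add, ← rm, py4, r1, add_comm]

include hbc in
theorem Sdim [FiniteDimensional F M] (h2 : (2 : F) = 0) :
    2 * finrank F ↥(SS ρ b) + finrank F ↥(Fx (ρ b) ⊓ Fx (ρ pa')) ≤ finrank F ↥(Fx (ρ b)) := by
  have hst : ∀ m ∈ Fx (ρ b), ρ pa' m ∈ Fx (ρ b) := fun m hm => by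
    rw [mem_Fx] at hm ⊢
    rw [← bc ρ hbc, hm]
  have h1 := split h2 (a3' ρ) (Fx (ρ b)) hst
  have h3 := dbl (a3' ρ) (sa' ρ) (Fx (ρ b) ⊓ Kp (ρ pa')) (by
    rintro m ⟨h4, h5⟩
    refine ⟨hst m h4, ?_⟩
    show _ ∈ Kp (ρ pa')
    have h5' := mem_Kp.1 h5
    rw [mem_Kp, ← map_add, ← map_add, h5', map_zero]) (by
    rintro m ⟨-, h5⟩ h6
    have h5' := mem_Kp.1 h5
    rw [h6, h6, two0 h2, zero_add] at h5'
    exact h5')
  have e : SS ρ b = Fx (ρ b) ⊓ Kp (ρ pa') ⊓ Fx (ρ (py * py)) := rfl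
  rw [e]
  omega

/-- the fixed space of `Y` -/
def YY : Submodule F M := Fx (ρ pa) ⊓ Fx (ρ pa') ⊓ Fx (ρ (py * py)) ⊓ Fx (ρ py)

theorem YY_FY {v : M} (hv : v ∈ YY ρ) : FY ρ v := ⟨mem_Fx.1 hv.1.1.1, mem_Fx.1 hv.1.1.2, mem_Fx.1 hv.2⟩

theorem Ydim [FiniteDimensional F M] (h2 : (2 : F) = 0) :
    finrank F ↥(Fx (ρ pa) ⊓ Fx (ρ pa')) ≤ 4 * finrank F ↥(YY ρ) := by
  have ya : ∀ m, ρ pa' (ρ py m) = ρ py (ρ pa m) := fun m => by
    rw [← rm, ← rm, ← py_a, inv_mul_cancel_right]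
  have ya' : ∀ m, ρ pa (ρ pa (ρ py m)) = ρ py (ρ pa' m) := fun m => by
    rw [← rm, ← rm, ← rm, ← py_a', inv_mul_cancel_right]
  have stab : ∀ m ∈ Fx (ρ pa) ⊓ Fx (ρ pa'), ρ py m ∈ Fx (ρ pa) ⊓ Fx (ρ pa') := by
    rintro m ⟨h4, h5⟩
    have h4' : ρ pa m = m := mem_Fx.1 h4
    have h5' : ρ pa' m = m := mem_Fx.1 h5
    refine ⟨?_, ?_⟩
    · show _ ∈ Fx (ρ pa)
      rw [mem_Fx]
      have h6 := ya' m
      rw [h5'] at h6
      have h7 := congrArg (ρ pa) h6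
      rw [b3 ρ pa3] at h7
      exact h7.symm
    · show _ ∈ Fx (ρ pa')
      rw [mem_Fx, ya, h4']
  have h1 := half h2 (T := ρ (py * py)) (Fx (ρ pa) ⊓ Fx (ρ pa')) (by
    intro m hm
    rw [rm]
    exact stab _ (stab _ hm)) (by
    intro m _
    rw [← rm, py4, r1])
  have h3 := half h2 (T := ρ py) (Fx (ρ pa) ⊓ Fx (ρ pa') ⊓ Fx (ρ (py * py))) (by
    rintro m ⟨h4, h5⟩
    refine ⟨stab m h4, ?_⟩
    show _ ∈ Fx _
    have h5' : ρ (py * py) m = m := mem_Fx.1 h5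
    rw [mem_Fx, ← rm, mul_assoc, rm, h5']) (by
    rintro m ⟨-, h5⟩
    rw [← rm]
    exact mem_Fx.1 h5)
  have e : YY ρ = Fx (ρ pa) ⊓ Fx (ρ pa') ⊓ Fx (ρ (py * py)) ⊓ Fx (ρ py) := rfl
  rw [e]
  omega

theorem pb3 : pa * pa' * (pa * pa') * (pa * pa') = 1 := by apply Subtype.ext; decide +kernel
theorem pbc : pa * pa' * pa' = pa' * (pa * pa') := by apply Subtype.ext; decide +kernel
theorem pbs : py * py * (pa * pa') = pa * pa' * (pa * pa') * (py * py) := by apply Subtype.ext; decide +kernel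

theorem E1_mem (h2 : (2 : F) = 0) {m : M} (hm : ρ (py * py) m = m) : E1 ρ m ∈ SS ρ pa :=
  EE_mem ρ pa3 pcomm pys_a h2 hm

theorem E2_mem (h2 : (2 : F) = 0) {m : M} (hm : ρ (py * py) m = m) : E2 ρ m ∈ SS ρ (pa * pa') :=
  EE_mem ρ pb3 pbc pbs h2 hm

theorem Q1_mem (h2 : (2 : F) = 0) (m : M) : Q1 ρ m ∈ SS ρ pa := Q_mem ρ pa3 pcomm pys_a h2 m

theorem Q2_mem (h2 : (2 : F) = 0) (m : M) : Q2 ρ m ∈ SS ρ (pa * pa') := Q_mem ρ pb3 pbc pbs h2 m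

/-- the map of (T2) -/
noncomputable def Th : (↥(SS ρ pa) × ↥(SS ρ (pa * pa'))) →ₗ[F] M :=
  LinearMap.coprod ((Ec ρ * ρ gA).comp (SS ρ pa).subtype) ((Ec ρ * ρ gB).comp (SS ρ (pa * pa')).subtype)

theorem Th_apply (x : ↥(SS ρ pa)) (y : ↥(SS ρ (pa * pa'))) :
    Th ρ (x, y) = Ec ρ (ρ gA x) + Ec ρ (ρ gB y) := by
  unfold Th
  rw [LinearMap.coprod_apply]
  rfl

theorem y_w {v : M} (hv : FY ρ v) : ρ py (ρ pw v) = ρ pw v := by
  rw [← rm, pw_y, rm, rm, rm, hv.2.2, hv.2.2, hv.2.2]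

theorem s_w {v : M} (hv : FY ρ v) : ρ (py * py) (ρ pw v) = ρ pw v := by
  rw [rm, y_w ρ hv, y_w ρ hv]

/-- the map of (T1) -/
noncomputable def Ka (h2 : (2 : F) = 0) : ↥(YY ρ) →ₗ[F] (↥(SS ρ pa) × ↥(SS ρ (pa * pa'))) :=
  LinearMap.prod
    (LinearMap.codRestrict (SS ρ pa) ((E1 ρ * ρ pw).comp (YY ρ).subtype) fun v =>
      E1_mem ρ h2 (s_w ρ (YY_FY ρ v.2)))
    (LinearMap.codRestrict (SS ρ (pa * pa')) ((E2 ρ * ρ pw).comp (YY ρ).subtype) fun v =>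
      E2_mem ρ h2 (s_w ρ (YY_FY ρ v.2)))

theorem Ka_inj (h2 : (2 : F) = 0) (hinv : ρ.invariants = ⊥) : Function.Injective (Ka ρ h2) := by
  rw [← LinearMap.ker_eq_bot, LinearMap.ker_eq_bot']
  intro v hv
  have h1 : E1 ρ (ρ pw (v : M)) = 0 := congrArg (fun x => ((x.1 : ↥(SS ρ pa)) : M)) hv
  have h3 : E2 ρ (ρ pw (v : M)) = 0 := congrArg (fun x => ((x.2 : ↥(SS ρ (pa * pa'))) : M)) hv
  have hY := YY_FY ρ v.2
  have h4 := fix_w ρ h2 (y_w ρ hY) h1 h3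
  have h5 : ρ (pw * pa * pw) (v : M) = v := by
    rw [rm, rm, h4, ← rm, pw2, r1]
  have h6 : ρ z5 (v : M) = v := by
    rw [z5_word, rm, rm, rm, hY.1, h5, h5, hY.2.1]
  have h7 : ρ x2 (v : M) = v := by
    rw [x2_word, rm, hY.2.1, hY.2.1]
  have h8 : (v : M) ∈ ρ.invariants := by
    rw [Representation.mem_invariants]
    exact fix_all ρ h6 h7
  rw [hinv, Submodule.mem_bot] at h8
  exact Subtype.ext h8

theorem Th_Ka (h2 : (2 : F) = 0) (hinv : ρ.invariants = ⊥) (v : ↥(YY ρ)) : Th ρ (Ka ρ h2 v) = 0 := by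
  have h1 : Ka ρ h2 v = (⟨E1 ρ (ρ pw (v : M)), E1_mem ρ h2 (s_w ρ (YY_FY ρ v.2))⟩,
    ⟨E2 ρ (ρ pw (v : M)), E2_mem ρ h2 (s_w ρ (YY_FY ρ v.2))⟩) := rfl
  rw [h1, Th_apply]
  show Ec ρ (ρ gA (E1 ρ (ρ pw (v : M)))) + Ec ρ (ρ gB (E2 ρ (ρ pw (v : M)))) = 0
  rw [kerA ρ h2 hinv (YY_FY ρ v.2), kerB ρ h2 hinv (YY_FY ρ v.2), add_zero]

/-- **the main inequality** -/
theorem main [FiniteDimensional F M] (h2 : (2 : F) = 0) (hinv : ρ.invariants = ⊥)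
    (hco : ∀ f : Module.Dual F M, (∀ g m, f (ρ g m) = f m) → f = 0) :
    finrank F ↥(Fx (ρ z5)) + finrank F ↥(YY ρ) ≤ finrank F ↥(SS ρ pa) + finrank F ↥(SS ρ (pa * pa')) := by
  have h1 := LinearMap.finrank_range_add_finrank_ker (Th ρ)
  rw [Module.finrank_prod] at h1
  have h3 : Fx (ρ z5) ≤ LinearMap.range (Th ρ) := by
    intro s hs
    obtain ⟨m1, m2, h4⟩ := surj ρ h2 hco (mem_Fx.1 hs)
    exact ⟨(⟨_, Q1_mem ρ h2 m1⟩, ⟨_, Q2_mem ρ h2 m2⟩), by rw [Th_apply]; exact h4.symm⟩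
  have h4 := Submodule.finrank_mono h3
  have h5 : finrank F ↥(YY ρ) ≤ finrank F ↥(LinearMap.ker (Th ρ)) := by
    refine LinearMap.finrank_le_finrank_of_injective
      (f := LinearMap.codRestrict (LinearMap.ker (Th ρ)) (Ka ρ h2) (fun v => Th_Ka ρ h2 hinv v)) ?_
    intro a b hab
    exact Ka_inj ρ h2 hinv (Subtype.ext_iff.1 hab)
  omega

/-- **the decomposition**: `dim M + 3 dim M^E = 2 (dim M^a + dim M^b)` -/
theorem dimE [FiniteDimensional F M] (h2 : (2 : F) = 0) :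
    finrank F M + 3 * finrank F ↥(Fx (ρ pa) ⊓ Fx (ρ pa')) = 2 * (ev (ρ pa) 1 + ev (ρ (pa * pa')) 1) := by
  have h1 := decomp h2 (b3 ρ pa3) (a3' ρ) (fun m => (bc ρ pcomm m).symm)
  have e1 : finrank F ↥(Fx (ρ pa')) = finrank F ↥(Fx (ρ pa)) := by
    have h3 := ev_cj ρ py pa
    rw [py_a] at h3
    exact h3
  have e2 : ρ pa * ρ pa' = ρ (pa * pa') := (map_mul ρ _ _).symm
  have e3 : ρ pa * (ρ pa' * ρ pa') = ρ (pa * (pa' * pa')) := by rw [map_mul, map_mul]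
  have e4 : finrank F ↥(Fx (ρ (pa * (pa' * pa')))) = finrank F ↥(Fx (ρ (pa * pa'))) := by
    have h3 := ev_cj ρ py (pa * (pa' * pa'))
    have h4 : py * (pa * (pa' * pa')) * py⁻¹ = pa * pa' := by apply Subtype.ext; decide +kernel
    rw [h4] at h3
    exact h3.symm
  rw [e2, e3, e1, e4] at h1
  show _ = 2 * (finrank F ↥(Fx (ρ pa)) + finrank F ↥(Fx (ρ (pa * pa'))))
  omega

theorem FbFa' : Fx (ρ (pa * pa')) ⊓ Fx (ρ pa') = Fx (ρ pa) ⊓ Fx (ρ pa') := by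
  ext m
  rw [Submodule.mem_inf, Submodule.mem_inf, mem_Fx, mem_Fx, mem_Fx, rm]
  constructor
  · rintro ⟨h1, h3⟩
    rw [h3] at h1
    exact ⟨h1, h3⟩
  · rintro ⟨h1, h3⟩
    refine ⟨?_, h3⟩
    rw [h3, h1]

end

/-- **INEQ** -/
theorem ineq6 {F : Type u} [Field F] (h2 : (2 : F) = 0) : Ineq F pa (pa * pa') z5 := by
  intro M _ _ _ ρ hinv hco
  have h1 := main ρ h2 hinv hco
  have h3 := dimE ρ h2
  have h4 := Sdim ρ (b := pa) pcomm h2
  have h5 := Sdim ρ (b := pa * pa') pbc h2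
  have h6 := Ydim ρ h2
  rw [FbFa'] at h5
  have e1 : ev (ρ z5) 1 = finrank F ↥(Fx (ρ z5)) := rfl
  have e2 : ev (ρ pa) 1 = finrank F ↥(Fx (ρ pa)) := rfl
  have e3 : ev (ρ (pa * pa')) 1 = finrank F ↥(Fx (ρ (pa * pa'))) := rfl
  rw [e1, e2, e3]
  rw [e2, e3] at h3
  omega

/-- **LOW** -/
theorem low6 {F : Type u} [Field F] (h2 : (2 : F) = 0) : Low F pa (pa * pa') := by
  intro M _ _ _ ρ
  have h3 := dimE ρ h2
  omega

end Cfsg.Agent.R2.T1.N6D.I2
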