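import Cfsg.Agent.H952.F4.Defs

/-!
# Certificates in the group algebra of `A₆` over the field of 4 elements (helper25)

A permutation of 6 points is coded by a number `< 6 ^ 6`, an element `a + b τ` of the field by `a + 2 b < 4`, a sum by a
number with `2 * 6 ^ 6` binary digits.

* `vec_zero` : if the relations `R i` annihilate `m` and the certificate checks, then `m = 0`.
-/

set_option autoImplicit false

namespace Cfsg.Agent.R2.T1.N6D.Ct

open Module Equiv Equiv.Perm

universe u v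

/-- the digits -/
def dg (c i : ℕ) : ℕ := c / 6 ^ i % 6

/-- the composition `s ∘ p` of codes -/
def act (p s : ℕ) : ℕ :=
  dg s (dg p 0) + 6 * (dg s (dg p 1) + 6 * (dg s (dg p 2) + 6 * (dg s (dg p 3) + 6 * (dg s (dg p 4) + 6 * dg s (dg p 5)))))

/-- products in the field of 4 elements -/
def mul4 (a b : ℕ) : ℕ :=
  match a with
  | 0 => 0
  | 1 => b
  | 2 => [0, 2, 3, 1].getD b 0
  | _ => [0, 3, 1, 2].getD b 0

/-- the decoding -/
def dec (c : ℕ) : Fin 6 → Fin 6 := fun i => ⟨dg c i, Nat.mod_lt _ (by norm_num)⟩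

theorem dg_lt (c i : ℕ) : dg c i < 6 := Nat.mod_lt _ (by norm_num)

theorem act_lt (p s : ℕ) : act p s < 46656 := by
  have h := fun i => dg_lt s (dg p i)
  have h0 := h 0
  have h1 := h 1
  have h2 := h 2
  have h3 := h 3
  have h4 := h 4
  have h5 := h 5
  unfold act
  omega

theorem dec_act (p s : ℕ) : dec (act p s) = dec s ∘ dec p := by
  funext i
  apply Fin.ext
  show dg (act p s) i = dg s (dg p i)
  have h := fun i => dg_lt s (dg p i)
  have h0 := h 0
  have h1 := h 1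
  have h2 := h 2
  have h3 := h 3
  have h4 := h 4
  have h5 := h 5
  obtain ⟨i, hi⟩ := i
  have key : ∀ k, k < 6 → dg (act p s) k = dg s (dg p k) := by
    intro k hk
    have hd : dg (act p s) k = act p s / 6 ^ k % 6 := rfl
    rw [hd]
    unfold act
    rcases k with _ | _ | _ | _ | _ | _ | k
    · norm_num
      omega
    · norm_num
      omega
    · norm_num
      omega
    · norm_num
      omega
    · norm_num
      omega
    · norm_num
      omega
    · omega
  exact key i hi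

/-- the sum as a number -/
def toX : List (ℕ × ℕ) → ℕ
  | [] => 0
  | e :: L => Nat.xor (Nat.shiftLeft e.2 (2 * e.1)) (toX L)

/-- the terms of `c * s * R` -/
def trm (cn : ℕ → ℕ) (R : List (ℕ × ℕ)) (s c : ℕ) : List (ℕ × ℕ) := R.map fun e => (cn (act e.1 s), mul4 c e.2)

/-- the terms of the certificate -/
def trms (cn : ℕ → ℕ) (R C : List (ℕ × ℕ)) : List (ℕ × ℕ) := C.flatMap fun e => trm cn R e.1 e.2

/-- the bounds -/
def bnd (L : List (ℕ × ℕ)) : Bool := L.all fun e => Nat.blt e.1 46656 && Nat.blt e.2 4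

section
variable {F : Type u} [Field F] {M : Type v} [AddCommGroup M] [Module F M]

/-- the elements of the field -/
def e4 (τ : F) (a : ℕ) : F := (if a.testBit 0 then 1 else 0) + (if a.testBit 1 then τ else 0)

theorem e4_0 (τ : F) : e4 τ 0 = 0 := by simp [e4]
theorem e4_1 (τ : F) : e4 τ 1 = 1 := by
  unfold e4
  rw [if_pos (by decide), if_neg (by decide), add_zero]
theorem e4_2 (τ : F) : e4 τ 2 = τ := by
  unfold e4
  rw [if_neg (by decide), if_pos (by decide), zero_add]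
theorem e4_3 (τ : F) : e4 τ 3 = 1 + τ := by
  unfold e4
  rw [if_pos (by decide), if_pos (by decide)]

theorem e4_mul4 (h2 : (2 : F) = 0) {τ : F} (hτ : τ * τ + τ - 1 = 0) {a b : ℕ} (ha : a < 4) (hb : b < 4) :
    e4 τ (mul4 a b) = e4 τ a * e4 τ b := by
  interval_cases a <;> interval_cases b <;>
    first
    | (show e4 τ 0 = _; simp only [e4_0, e4_1, e4_2, e4_3, zero_mul, mul_zero])
    | (show e4 τ 1 = _; simp only [e4_1, e4_2, e4_3]; first | ring1 | (linear_combination (-(1 : F)) * hτ))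
    | (show e4 τ 2 = _; simp only [e4_1, e4_2, e4_3]; first | ring1 | (linear_combination (-(1 : F)) * hτ - (1 : F) * h2))
    | (show e4 τ 3 = _; simp only [e4_1, e4_2, e4_3]; first | ring1 | (linear_combination (-(1 : F)) * hτ + τ * h2))

/-- the value of a code -/
noncomputable def Phi (τ : F) (w : ℕ → M) (X : ℕ) : M :=
  ∑ c ∈ Finset.range 46656, ((if X.testBit (2 * c) then (1 : F) else 0) + (if X.testBit (2 * c + 1) then τ else 0)) • w c

theorem bx (h2 : (2 : F) = 0) (x : F) (a b : Bool) :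
    (if (a ^^ b) = true then x else 0) = (if a = true then x else 0) + (if b = true then x else 0) := by
  cases a <;> cases b
  · simp
  · simp
  · simp
  · simp only [Bool.xor_self, Bool.false_eq_true, if_false, if_true]
    linear_combination (-x) * h2

theorem Phi_xor (h2 : (2 : F) = 0) (τ : F) (w : ℕ → M) (X Y : ℕ) : Phi τ w (Nat.xor X Y) = Phi τ w X + Phi τ w Y := by
  unfold Phi
  rw [← Finset.sum_add_distrib]
  refine Finset.sum_congr rfl fun c _ => ?_
  rw [← add_smul]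
  congr 1
  have h : ∀ i, (Nat.xor X Y).testBit i = (X.testBit i ^^ Y.testBit i) := fun i => Nat.testBit_xor ..
  rw [h, h, bx h2, bx h2]
  ring

theorem Phi_single (τ : F) (w : ℕ → M) {a c : ℕ} (ha : a < 4) (hc : c < 46656) :
    Phi τ w (Nat.shiftLeft a (2 * c)) = e4 τ a • w c := by
  have h : ∀ i, (Nat.shiftLeft a (2 * c)).testBit i = (decide (i ≥ 2 * c) && a.testBit (i - 2 * c)) :=
    fun i => Nat.testBit_shiftLeft ..
  have hbig : ∀ i, 2 ≤ i → a.testBit i = false := by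
    intro i hi
    apply Nat.testBit_lt_two_pow
    calc a < 2 ^ 2 := ha
      _ ≤ 2 ^ i := Nat.pow_le_pow_right (by norm_num) hi
  unfold Phi
  rw [Finset.sum_eq_single c]
  · rw [h, h]
    have e1 : 2 * c - 2 * c = 0 := Nat.sub_self _
    have e2 : 2 * c + 1 - 2 * c = 1 := by omega
    rw [e1, e2, decide_eq_true (show 2 * c ≥ 2 * c from le_rfl), decide_eq_true (show 2 * c + 1 ≥ 2 * c by omega),
      Bool.true_and, Bool.true_and]
    rfl
  · intro d _ hd
    have h0 : ∀ j, j < 2 → (Nat.shiftLeft a (2 * c)).testBit (2 * d + j) = false := by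
      intro j hj
      rw [h]
      rcases lt_or_gt_of_ne hd with h1 | h1
      · rw [decide_eq_false (by omega), Bool.false_and]
      · rw [hbig _ (by omega), Bool.and_false]
    rw [show 2 * d = 2 * d + 0 from rfl, h0 0 (by norm_num), show 2 * d + 0 + 1 = 2 * d + 1 from rfl, h0 1 (by norm_num)]
    simp
  · intro hn
    exact absurd (Finset.mem_range.2 hc) hn

theorem sound (h2 : (2 : F) = 0) (τ : F) (w : ℕ → M) (L : List (ℕ × ℕ)) (hL : bnd L = true) :
    (L.map fun e => e4 τ e.2 • w e.1).sum = Phi τ w (toX L) := by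
  induction L with
  | nil =>
    show 0 = Phi τ w 0
    unfold Phi
    simp
  | cons e L ih =>
    unfold bnd at hL ih
    rw [List.all_cons, Bool.and_eq_true, Bool.and_eq_true, Nat.blt_eq, Nat.blt_eq] at hL
    rw [List.map_cons, List.sum_cons, ih hL.2]
    show _ = Phi τ w (Nat.xor (Nat.shiftLeft e.2 (2 * e.1)) (toX L))
    rw [Phi_xor h2, Phi_single τ w hL.1.2 hL.1.1]

open Classical in
/-- the operator of a function -/
noncomputable def U (ρ : Representation F ↥(alternatingGroup (Fin 6)) M) (s : Fin 6 → Fin 6) : Module.End F M :=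
  if h : ∃ σ : ↥(alternatingGroup (Fin 6)), ⇑(σ : Perm (Fin 6)) = s then ρ h.choose else 0

variable (ρ : Representation F ↥(alternatingGroup (Fin 6)) M)

theorem U_coe (σ : ↥(alternatingGroup (Fin 6))) : U ρ ⇑(σ : Perm (Fin 6)) = ρ σ := by
  have h : ∃ σ' : ↥(alternatingGroup (Fin 6)), ⇑(σ' : Perm (Fin 6)) = ⇑(σ : Perm (Fin 6)) := ⟨σ, rfl⟩
  unfold U
  rw [dif_pos h]
  congr 1
  apply Subtype.ext
  apply Equiv.coe_fn_injective
  exact h.choose_spec

/-- the code of an even permutation -/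
def InA (p : ℕ) (g : ↥(alternatingGroup (Fin 6))) : Prop := ⇑(g : Perm (Fin 6)) = dec p

theorem InA.act {p q : ℕ} {g h : ↥(alternatingGroup (Fin 6))} (hp : InA p g) (hq : InA q h) : InA (act p q) (h * g) := by
  unfold InA at *
  rw [dec_act, ← hp, ← hq]
  rfl

theorem U_InA {p : ℕ} {g : ↥(alternatingGroup (Fin 6))} (hp : InA p g) : U ρ (dec p) = ρ g := by
  rw [← U_coe, hp]

theorem U_act {p : ℕ} {g : ↥(alternatingGroup (Fin 6))} (hp : InA p g) (s : ℕ) :
    U ρ (dec (act p s)) = U ρ (dec s) * ρ g := by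
  rw [dec_act]
  by_cases hs : ∃ σ : ↥(alternatingGroup (Fin 6)), ⇑(σ : Perm (Fin 6)) = dec s
  · obtain ⟨σ, hσ⟩ := hs
    have h1 : dec s ∘ dec p = ⇑((σ * g : ↥(alternatingGroup (Fin 6))) : Perm (Fin 6)) := by
      rw [← hσ, ← hp]
      rfl
    rw [h1, U_coe, ← hσ, U_coe, map_mul]
  · have h1 : ¬ ∃ σ : ↥(alternatingGroup (Fin 6)), ⇑(σ : Perm (Fin 6)) = dec s ∘ dec p := by
      rintro ⟨σ, hσ⟩
      apply hs
      refine ⟨σ * g⁻¹, ?_⟩
      funext i
      show (σ : Perm (Fin 6)) (((g⁻¹ : ↥(alternatingGroup (Fin 6))) : Perm (Fin 6)) i) = dec s i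
      have h3 := congrFun hσ (((g⁻¹ : ↥(alternatingGroup (Fin 6))) : Perm (Fin 6)) i)
      rw [h3, Function.comp_apply, ← hp]
      congr 1
      rw [InvMemClass.coe_inv]
      exact Equiv.apply_symm_apply _ _
    unfold U
    rw [dif_neg h1, dif_neg hs, zero_mul]

/-- a relation -/
noncomputable def opR (τ : F) (R : List (ℕ × ℕ)) (m : M) : M := (R.map fun e => e4 τ e.2 • U ρ (dec e.1) m).sum

theorem trm_sum (h2 : (2 : F) = 0) {τ : F} (hτ : τ * τ + τ - 1 = 0) {m : M} {cn : ℕ → ℕ}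
    (hcn : ∀ c, U ρ (dec (cn c)) m = U ρ (dec c) m) (R : List (ℕ × ℕ)) (hR : ∀ e ∈ R, e.2 < 4 ∧ ∃ g, InA e.1 g)
    (s : ℕ) {c : ℕ} (hc : c < 4) :
    ((trm cn R s c).map fun e => e4 τ e.2 • U ρ (dec e.1) m).sum = e4 τ c • U ρ (dec s) (opR ρ τ R m) := by
  induction R with
  | nil =>
    show 0 = e4 τ c • U ρ (dec s) 0
    rw [map_zero, smul_zero]
  | cons e R ih =>
    obtain ⟨he, g, hg⟩ := hR e List.mem_cons_self
    have h1 := ih fun e' he' => hR e' (List.mem_cons_of_mem _ he')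
    unfold trm opR at *
    rw [List.map_cons, List.map_cons, List.sum_cons, h1, List.map_cons, List.sum_cons, map_add, smul_add]
    congr 1
    rw [hcn, U_act ρ hg, e4_mul4 h2 hτ hc he, U_InA ρ hg, map_smul, smul_smul, Module.End.mul_apply]

theorem trms_sum (h2 : (2 : F) = 0) {τ : F} (hτ : τ * τ + τ - 1 = 0) {m : M} {cn : ℕ → ℕ}
    (hcn : ∀ c, U ρ (dec (cn c)) m = U ρ (dec c) m) (R : List (ℕ × ℕ)) (hR : ∀ e ∈ R, e.2 < 4 ∧ ∃ g, InA e.1 g)
    (h0 : opR ρ τ R m = 0) (C : List (ℕ × ℕ)) (hC : ∀ e ∈ C, e.2 < 4) :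
    ((trms cn R C).map fun e => e4 τ e.2 • U ρ (dec e.1) m).sum = 0 := by
  induction C with
  | nil => rfl
  | cons e C ih =>
    have h1 : trms cn R (e :: C) = trm cn R e.1 e.2 ++ trms cn R C := rfl
    rw [h1, List.map_append, List.sum_append, ih fun e' he' => hC e' (List.mem_cons_of_mem _ he'),
      trm_sum ρ h2 hτ hcn R hR _ (hC e List.mem_cons_self), h0, map_zero, smul_zero, add_zero]

/-- the check of a certificate with two relations -/
def chk (cn : ℕ → ℕ) (R1 C1 R2 C2 : List (ℕ × ℕ)) (s0 : ℕ) : Bool :=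
  (C1.all fun e => Nat.blt e.2 4) && (C2.all fun e => Nat.blt e.2 4) && bnd (trms cn R1 C1 ++ trms cn R2 C2) &&
    Nat.blt s0 46656 && Nat.beq (toX (trms cn R1 C1 ++ trms cn R2 C2)) (Nat.shiftLeft 1 (2 * s0))

/-- **certificates** -/
theorem vec_zero (h2 : (2 : F) = 0) {τ : F} (hτ : τ * τ + τ - 1 = 0) {m : M} {cn : ℕ → ℕ}
    (hcn : ∀ c, U ρ (dec (cn c)) m = U ρ (dec c) m) {R1 C1 R2 C2 : List (ℕ × ℕ)} {s0 : ℕ}
    (hR1 : ∀ e ∈ R1, e.2 < 4 ∧ ∃ g, InA e.1 g) (hR2 : ∀ e ∈ R2, e.2 < 4 ∧ ∃ g, InA e.1 g)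
    (h1 : opR ρ τ R1 m = 0) (h2' : opR ρ τ R2 m = 0) (hc : chk cn R1 C1 R2 C2 s0 = true) : U ρ (dec s0) m = 0 := by
  unfold chk at hc
  simp only [Bool.and_eq_true, List.all_eq_true, Nat.blt_eq, Nat.beq_eq] at hc
  obtain ⟨⟨⟨⟨c1, c2⟩, c3⟩, c4⟩, c5⟩ := hc
  have e1 := sound h2 τ (fun c => U ρ (dec c) m) _ c3
  rw [List.map_append, List.sum_append, trms_sum ρ h2 hτ hcn R1 hR1 h1 C1 c1, trms_sum ρ h2 hτ hcn R2 hR2 h2' C2 c2,
    add_zero, c5, Phi_single _ _ (by norm_num) c4, e4_1, one_smul] at e1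
  exact e1.symm

end

end Cfsg.Agent.R2.T1.N6D.Ct
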