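import Cfsg.Agent.H952.F4.Defs

/-!
# S5929, `n = 6`, `p = 2`: fixed points of elements of order 5 and 3 (helper18)

* `pos_rel` : `2 = 0`, `x ^ 5 = 1`, `t ^ 3 = 1`, `t ^ 2 = x ^ i * t * x ^ j`: the fixed space of `x` embeds into the
  fixed space of `t`;
* `pos` : for elements `a`, `c` of orders 3, 5 of `A₆` the fixed space of `c` is not larger than that of `a`.
-/

set_option autoImplicit false

namespace Cfsg.Agent.R2.T1.N6D

open Module Equiv Equiv.Perm
open Cfsg.Agent.H952.F4 (ev)

universe u v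

section gen
variable {F : Type u} [Field F] {G : Type*} [Group G] {M : Type v} [AddCommGroup M] [Module F M]

theorem mem_fix {ρ : Representation F G M} {x : G} {m : M} : m ∈ (Module.End.eigenspace (ρ x) 1) ↔ ρ x m = m := by
  rw [Module.End.mem_eigenspace_iff, one_smul]

theorem pos_inj (h2 : (2 : F) = 0) (ρ : Representation F G M) {x t : G} (hx : x ^ 5 = 1) {i j : ℕ}
    (hr : t * t = x ^ i * t * x ^ j) {m : M} (hm : ρ x m = m) (h0 : m + ρ t m + ρ (t * t) m = 0) : m = 0 := by
  have two : ∀ y : M, y + y = 0 := by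
    intro y
    rw [← two_smul F y, h2, zero_smul]
  have hp : ∀ k : ℕ, ρ (x ^ k) m = m := by
    intro k
    induction k with
    | zero => rw [pow_zero, map_one]; rfl
    | succ k ih => rw [pow_succ, map_mul, Module.End.mul_apply, hm, ih]
  have h1 : ρ (t * t) m = ρ (x ^ i) (ρ t m) := by
    rw [hr, map_mul, map_mul, Module.End.mul_apply, Module.End.mul_apply, hp]
  -- the sum over the powers of `x`
  set S : M → M := fun y => ∑ k ∈ Finset.range 5, ρ (x ^ k) y with hS
  have hSi : ∀ (k : ℕ) (y : M), S (ρ (x ^ k) y) = S y := by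
    have h1 : ∀ y : M, S (ρ x y) = S y := by
      intro y
      have e1 : ∀ k : ℕ, ρ (x ^ k) (ρ x y) = ρ (x ^ (k + 1)) y := by
        intro k
        rw [pow_succ, map_mul, Module.End.mul_apply]
      simp only [hS, e1]
      rw [Finset.sum_range_succ, Finset.sum_range_succ' (fun k => ρ (x ^ k) y), hx, pow_zero]
    intro k y
    induction k with
    | zero => rw [pow_zero, map_one]; rfl
    | succ k ih => rw [pow_succ', map_mul, Module.End.mul_apply, h1, ih]
  have hSa : ∀ y z : M, S (y + z) = S y + S z := by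
    intro y z
    simp only [hS, map_add, Finset.sum_add_distrib]
  have hSm : S m = m := by
    simp only [hS, hp]
    rw [Finset.sum_const, Finset.card_range]
    show (5 : ℕ) • m = m
    have : (5 : ℕ) • m = (m + m) + (m + m) + m := by
      rw [show (5 : ℕ) = 1 + 1 + 1 + 1 + 1 from rfl]
      simp only [add_smul, one_smul]
      abel
    rw [this, two, zero_add]
  have h3 : S (m + ρ t m + ρ (t * t) m) = 0 := by
    rw [h0]
    simp only [hS, map_zero, Finset.sum_const_zero]
  rw [hSa, hSa, h1, hSi, hSm, add_assoc, two, add_zero] at h3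
  exact h3

/-- the fixed space of `x` embeds into the fixed space of `t` -/
theorem pos_rel [FiniteDimensional F M] (h2 : (2 : F) = 0) (ρ : Representation F G M) {x t : G} (hx : x ^ 5 = 1)
    (ht : t ^ 3 = 1) {i j : ℕ} (hr : t * t = x ^ i * t * x ^ j) : ev (ρ x) 1 ≤ ev (ρ t) 1 := by
  set f : ↥((Module.End.eigenspace (ρ x) 1)) →ₗ[F] ↥((Module.End.eigenspace (ρ t) 1)) :=
    LinearMap.codRestrict _ (((LinearMap.id : M →ₗ[F] M) + ρ t + ρ (t * t)).comp (Submodule.subtype _)) (by
      intro m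
      rw [mem_fix]
      simp only [LinearMap.comp_apply, LinearMap.add_apply, LinearMap.id_apply, map_add, Submodule.subtype_apply]
      rw [← Module.End.mul_apply, ← Module.End.mul_apply, ← map_mul, ← map_mul, ← mul_assoc]
      have h3 : t * t * t = 1 := by rw [← ht, pow_succ, pow_succ, pow_one]
      rw [h3, map_one, Module.End.one_apply]
      abel) with hf
  refine LinearMap.finrank_le_finrank_of_injective (f := f) ?_
  rw [← LinearMap.ker_eq_bot, LinearMap.ker_eq_bot']
  intro m hm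
  have h1 := congrArg Subtype.val hm
  rw [hf] at h1
  apply Subtype.ext
  exact pos_inj h2 ρ hx hr (mem_fix.1 m.2) h1

/-- the dimension of the fixed space of a power -/
theorem ev_pow_five {x : G} (hx : x ^ 5 = 1) (ρ : Representation F G M) : ev (ρ (x * x)) 1 = ev (ρ x) 1 := by
  have h1 : (Module.End.eigenspace (ρ (x * x)) 1) = (Module.End.eigenspace (ρ x) 1) := by
    ext m
    rw [mem_fix, mem_fix]
    constructor
    · intro h
      have h3 : x * x * (x * x) * (x * x) = x := by
        have e : x * x * (x * x) * (x * x) = x ^ 5 * x := by simp only [pow_succ, pow_zero, one_mul, mul_assoc]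
        rw [e, hx, one_mul]
      rw [← h3, map_mul, map_mul, Module.End.mul_apply, Module.End.mul_apply, h, h, h]
    · intro h
      rw [map_mul, Module.End.mul_apply, h, h]
  unfold ev
  rw [h1]

theorem ev_cj (ρ : Representation F G M) (g x : G) : ev (ρ (g * x * g⁻¹)) 1 = ev (ρ x) 1 := by
  have hinv : ∀ y : M, ρ g⁻¹ (ρ g y) = y := fun y => by
    rw [← Module.End.mul_apply, ← map_mul, inv_mul_cancel, map_one, Module.End.one_apply]
  have hinv' : ∀ y : M, ρ g (ρ g⁻¹ y) = y := fun y => by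
    rw [← Module.End.mul_apply, ← map_mul, mul_inv_cancel, map_one, Module.End.one_apply]
  have key : (Module.End.eigenspace (ρ (g * x * g⁻¹)) 1) = ((Module.End.eigenspace (ρ x) 1)).map (ρ g) := by
    ext y
    rw [Submodule.mem_map, mem_fix]
    constructor
    · intro h
      refine ⟨ρ g⁻¹ y, ?_, hinv' y⟩
      rw [mem_fix]
      rw [map_mul, map_mul, Module.End.mul_apply, Module.End.mul_apply] at h
      have h1 := congrArg (ρ g⁻¹) h
      rwa [hinv] at h1
    · rintro ⟨z, hz, rfl⟩
      rw [mem_fix] at hz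
      rw [map_mul, map_mul, Module.End.mul_apply, Module.End.mul_apply, hinv, hz]
  unfold ev
  rw [key]
  refine LinearEquiv.finrank_eq (LinearEquiv.symm (Submodule.equivMapOfInjective (ρ g) ?_ _))
  intro a b hab
  rw [← hinv a, hab, hinv]

end gen

/-! ### conjugacy in `A₆` -/

/-- `(0 1 2 3 4)` -/
def x5 : Perm (Fin 6) := c[0, 1, 2, 3, 4]
/-- `(0 1 2)` -/
def tA : Perm (Fin 6) := c[0, 1, 2]
/-- `(0 1 2)(3 5 4)` -/
def tB : Perm (Fin 6) := c[0, 1, 2] * c[3, 5, 4]

theorem x5_sign : sign x5 = 1 := by decide +kernel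
theorem tA_sign : sign tA = 1 := by decide +kernel
theorem tB_sign : sign tB = 1 := by decide +kernel
theorem x5_pow : x5 ^ 5 = 1 := by decide +kernel
theorem tA_pow : tA ^ 3 = 1 := by decide +kernel
theorem tB_pow : tB ^ 3 = 1 := by decide +kernel

theorem tA_rel : ∃ i j : Fin 5, tA * tA = x5 ^ i.val * tA * x5 ^ j.val := by decide +kernel
theorem tB_rel : ∃ i j : Fin 5, tB * tB = x5 ^ i.val * tB * x5 ^ j.val := by decide +kernel

theorem x5_type : x5.cycleType = {5} := by decide +kernel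
theorem tA_type : tA.cycleType = {3} := by decide +kernel
theorem tB_type : tB.cycleType = {3, 3} := by decide +kernel

/-- conjugacy in `A₆` if an odd permutation normalizes suitably -/
theorem conj_alt {a b : Perm (Fin 6)} (h : a.cycleType = b.cycleType) {s b' : Perm (Fin 6)} (hs : sign s = -1)
    (hsb : s * b * s⁻¹ = b') : ∃ g : Perm (Fin 6), sign g = 1 ∧ (g * a * g⁻¹ = b ∨ g * a * g⁻¹ = b') := by
  obtain ⟨g, hg⟩ := isConj_iff.1 (isConj_iff_cycleType_eq.2 h)
  rcases Int.units_eq_one_or (sign g) with h1 | h1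
  · exact ⟨g, h1, Or.inl hg⟩
  · refine ⟨s * g, by rw [map_mul, hs, h1]; rfl, Or.inr ?_⟩
    rw [← hsb, ← hg]
    group

theorem type_of {σ : Perm (Fin 6)} {p : ℕ} (hp : p.Prime) (h : orderOf σ = p) : ∃ n : ℕ, σ.cycleType = Multiset.replicate (n + 1) p ∧
    (n + 1) * p ≤ 6 := by
  obtain ⟨n, hn⟩ := cycleType_prime_order (σ := σ) (by rw [h]; exact hp)
  rw [h] at hn
  refine ⟨n, hn, ?_⟩
  have h1 : σ.cycleType.sum ≤ 6 := by
    rw [sum_cycleType]
    exact le_trans (Finset.card_le_univ _) (by simp)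
  rw [hn, Multiset.sum_replicate, smul_eq_mul] at h1
  exact h1

section
variable {F : Type u} [Field F] {M : Type v} [AddCommGroup M] [Module F M]

/-- **fixed points of elements of orders 5 and 3** -/
theorem pos [FiniteDimensional F M] (h2 : (2 : F) = 0) (ρ : Representation F ↥(alternatingGroup (Fin 6)) M)
    {a c : ↥(alternatingGroup (Fin 6))} (ha : orderOf a = 3) (hc : orderOf c = 5) : ev (ρ c) 1 ≤ ev (ρ a) 1 := by
  have ha' : orderOf (a : Perm (Fin 6)) = 3 := by rw [Subgroup.orderOf_coe, ha]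
  have hc' : orderOf (c : Perm (Fin 6)) = 5 := by rw [Subgroup.orderOf_coe, hc]
  set X : ↥(alternatingGroup (Fin 6)) := ⟨x5, mem_alternatingGroup.2 x5_sign⟩ with hX
  have hX5 : X ^ 5 = 1 := Subtype.ext x5_pow
  -- the elements of order 5
  have key5 : ev (ρ c) 1 = ev (ρ X) 1 := by
    obtain ⟨n, hn, hn'⟩ := type_of (by norm_num) hc'
    have hn0 : n = 0 := by omega
    subst hn0
    obtain ⟨g, hg, h⟩ := conj_alt (a := c) (b := x5) (s := c[1, 2, 4, 3]) (b' := x5 * x5)
      (by rw [hn, x5_type]; rfl) (by decide +kernel) (by decide +kernel)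
    rcases h with h | h
    · have h1 : (⟨g, mem_alternatingGroup.2 hg⟩ : ↥(alternatingGroup (Fin 6))) * c *
          (⟨g, mem_alternatingGroup.2 hg⟩ : ↥(alternatingGroup (Fin 6)))⁻¹ = X := Subtype.ext h
      rw [← h1, ev_cj]
    · have h1 : (⟨g, mem_alternatingGroup.2 hg⟩ : ↥(alternatingGroup (Fin 6))) * c *
          (⟨g, mem_alternatingGroup.2 hg⟩ : ↥(alternatingGroup (Fin 6)))⁻¹ = X * X := Subtype.ext h
      rw [← ev_pow_five hX5, ← h1, ev_cj]
  rw [key5]
  obtain ⟨n, hn, hn'⟩ := type_of (by norm_num) ha'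
  have hn1 : n = 0 ∨ n = 1 := by omega
  rcases hn1 with rfl | rfl
  · obtain ⟨g, hg, h⟩ := conj_alt (a := a) (b := tA) (s := c[3, 4]) (b' := tA)
      (by rw [hn, tA_type]; rfl) (by decide +kernel) (by decide +kernel)
    rw [or_self] at h
    set T : ↥(alternatingGroup (Fin 6)) := ⟨tA, mem_alternatingGroup.2 tA_sign⟩ with hT
    have h1 : (⟨g, mem_alternatingGroup.2 hg⟩ : ↥(alternatingGroup (Fin 6))) * a *
        (⟨g, mem_alternatingGroup.2 hg⟩ : ↥(alternatingGroup (Fin 6)))⁻¹ = T := Subtype.ext h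
    rw [← ev_cj ρ ⟨g, mem_alternatingGroup.2 hg⟩ a, h1]
    obtain ⟨i, j, hij⟩ := tA_rel
    exact pos_rel h2 ρ hX5 (Subtype.ext tA_pow) (Subtype.ext hij)
  · obtain ⟨g, hg, h⟩ := conj_alt (a := a) (b := tB) (s := c[0, 3] * c[1, 5] * c[2, 4]) (b' := tB)
      (by rw [hn, tB_type]; rfl) (by decide +kernel) (by decide +kernel)
    rw [or_self] at h
    set T : ↥(alternatingGroup (Fin 6)) := ⟨tB, mem_alternatingGroup.2 tB_sign⟩ with hT
    have h1 : (⟨g, mem_alternatingGroup.2 hg⟩ : ↥(alternatingGroup (Fin 6))) * a *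
        (⟨g, mem_alternatingGroup.2 hg⟩ : ↥(alternatingGroup (Fin 6)))⁻¹ = T := Subtype.ext h
    rw [← ev_cj ρ ⟨g, mem_alternatingGroup.2 hg⟩ a, h1]
    obtain ⟨i, j, hij⟩ := tB_rel
    exact pos_rel h2 ρ hX5 (Subtype.ext tB_pow) (Subtype.ext hij)

end

end Cfsg.Agent.R2.T1.N6D
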