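import Cfsg.Agent.R2.T1.N6D.T2
import Cfsg.Agent.R2.T1.N6D.Pos

/-!
# S5929, `n = 6`, `p = 2`: dimensions of fixed spaces for `3²` in characteristic 2 (helper25)
-/

set_option autoImplicit false
set_option maxRecDepth 100000

namespace Cfsg.Agent.R2.T1.N6D.I2

open Module Equiv Equiv.Perm
open Cfsg.Agent.R2.T1
open Cfsg.Agent.H952.F4 (ev)

universe u v

section
variable {F : Type u} [Field F] {M : Type v} [AddCommGroup M] [Module F M]

/-- the fixed space -/
def Fx (T : Module.End F M) : Submodule F M := Module.End.eigenspace T 1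

/-- the kernel of `1 + T + T²` -/
def Kp (T : Module.End F M) : Submodule F M := LinearMap.ker (1 + T + T * T)

theorem mem_Fx {T : Module.End F M} {m : M} : m ∈ Fx T ↔ T m = m := by
  unfold Fx
  rw [Module.End.mem_eigenspace_iff, one_smul]

theorem mem_Kp {T : Module.End F M} {m : M} : m ∈ Kp T ↔ m + T m + T (T m) = 0 := Iff.rfl

theorem two0 (h2 : (2 : F) = 0) (m : M) : m + m = 0 := by rw [← two_smul F m, h2, zero_smul]

theorem neg0 (h2 : (2 : F) = 0) (m : M) : -m = m := by
  rw [neg_eq_iff_add_eq_zero]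
  exact two0 h2 m

theorem finrank_ker_res [FiniteDimensional F M] (W : Submodule F M) (f : Module.End F M) :
    finrank F ↥W = finrank F ↥(W.map f) + finrank F ↥(W ⊓ LinearMap.ker f) := by
  have h1 := LinearMap.finrank_range_add_finrank_ker (f.comp W.subtype)
  have h3 : LinearMap.range (f.comp W.subtype) = W.map f := by
    rw [LinearMap.range_comp, Submodule.range_subtype]
  have h4 : (LinearMap.ker (f.comp W.subtype)).map W.subtype = W ⊓ LinearMap.ker f := by
    rw [LinearMap.ker_comp, Submodule.map_comap_subtype]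
  rw [h3] at h1
  rw [← h1, ← h4]
  congr 1
  exact (LinearEquiv.finrank_eq (Submodule.equivMapOfInjective W.subtype W.injective_subtype _))

/-- **splitting under an operator of order 3** -/
theorem split [FiniteDimensional F M] (h2 : (2 : F) = 0) {T : Module.End F M} (hT : ∀ m, T (T (T m)) = m)
    (W : Submodule F M) (hW : ∀ m ∈ W, T m ∈ W) :
    finrank F ↥W = finrank F ↥(W ⊓ Fx T) + finrank F ↥(W ⊓ Kp T) := by
  have hm : W.map (1 + T + T * T) = W ⊓ Fx T := ?_
  · rw [finrank_ker_res W (1 + T + T * T), hm]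
    rfl
  ext m
  constructor
  · rintro ⟨x, hx, rfl⟩
    refine ⟨add_mem (add_mem hx (hW _ hx)) (hW _ (hW _ hx)), ?_⟩
    show _ ∈ Fx T
    rw [mem_Fx]
    show T (x + T x + T (T x)) = x + T x + T (T x)
    rw [map_add, map_add, hT]
    abel
  · rintro ⟨h1, h3⟩
    refine ⟨m, h1, ?_⟩
    have h4 : T m = m := mem_Fx.1 h3
    show m + T m + T (T m) = m
    rw [h4, h4, two0 h2, zero_add]

/-- **fixed points of an involution** -/
theorem half [FiniteDimensional F M] (h2 : (2 : F) = 0) {T : Module.End F M} (W : Submodule F M)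
    (hW : ∀ m ∈ W, T m ∈ W) (hT : ∀ m ∈ W, T (T m) = m) : finrank F ↥W ≤ 2 * finrank F ↥(W ⊓ Fx T) := by
  rw [finrank_ker_res W (1 + T)]
  have h1 : W.map (1 + T) ≤ W ⊓ Fx T := by
    rintro _ ⟨x, hx, rfl⟩
    refine ⟨add_mem hx (hW _ hx), ?_⟩
    show _ ∈ Fx T
    rw [mem_Fx]
    show T (x + T x) = x + T x
    rw [map_add, hT x hx, add_comm]
  have h3 : W ⊓ LinearMap.ker (1 + T) = W ⊓ Fx T := by
    ext m
    rw [Submodule.mem_inf, Submodule.mem_inf, mem_Fx, LinearMap.mem_ker]
    refine and_congr_right fun _ => ?_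
    show m + T m = 0 ↔ _
    constructor
    · intro h
      have h4 := eq_neg_of_add_eq_zero_right h
      rw [h4, neg0 h2]
    · intro h
      rw [h, two0 h2]
  have h4 := Submodule.finrank_mono h1
  rw [h3]
  omega

/-- two copies of the fixed space of an involution -/
theorem dbl [FiniteDimensional F M] {T S : Module.End F M} (hT : ∀ m, T (T (T m)) = m)
    (hS : ∀ m, S (T m) = T (T (S m))) (W : Submodule F M) (hW : ∀ m ∈ W, T m ∈ W) (hf : ∀ m ∈ W, T m = m → m = 0) :
    2 * finrank F ↥(W ⊓ Fx S) ≤ finrank F ↥W := by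
  have hinj : Function.Injective T := by
    intro a b hab
    rw [← hT a, hab, hT]
  have h1 : finrank F ↥((W ⊓ Fx S).map T) = finrank F ↥(W ⊓ Fx S) :=
    (LinearEquiv.finrank_eq (Submodule.equivMapOfInjective T hinj (W ⊓ Fx S))).symm
  have h3 : (W ⊓ Fx S) ⊓ (W ⊓ Fx S).map T = ⊥ := by
    rw [eq_bot_iff]
    rintro _ ⟨⟨-, h4⟩, x, ⟨hx, hx'⟩, rfl⟩
    have h5 : S (T x) = T x := mem_Fx.1 h4
    have h6 : S x = x := mem_Fx.1 hx'
    rw [hS, h6] at h5
    have h7 : T x = x := hinj h5
    have h8 := hf x hx h7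
    rw [h8, map_zero, Submodule.mem_bot]
  have h4 := Submodule.finrank_sup_add_finrank_inf_eq (W ⊓ Fx S) ((W ⊓ Fx S).map T)
  have h5 : (W ⊓ Fx S) ⊔ (W ⊓ Fx S).map T ≤ W := by
    refine sup_le inf_le_left ?_
    rintro _ ⟨x, ⟨hx, -⟩, rfl⟩
    exact hW x hx
  have h6 := Submodule.finrank_mono h5
  rw [h3, finrank_bot, h1] at h4
  omega

/-- **the decomposition for `3²`** -/
theorem decomp [FiniteDimensional F M] (h2 : (2 : F) = 0) {A A' : Module.End F M} (hA : ∀ m, A (A (A m)) = m)
    (hA' : ∀ m, A' (A' (A' m)) = m) (hc : ∀ m, A (A' m) = A' (A m)) :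
    finrank F M + 3 * finrank F ↥(Fx A ⊓ Fx A') = finrank F ↥(Fx A) + finrank F ↥(Fx A') + finrank F ↥(Fx (A * A')) +
      finrank F ↥(Fx (A * (A' * A'))) := by
  have hB : ∀ m, (A * A') ((A * A') ((A * A') m)) = m := by
    intro m
    simp only [Module.End.mul_apply, hc, hA, hA']
  have hB' : ∀ m, (A * (A' * A')) ((A * (A' * A')) ((A * (A' * A')) m)) = m := by
    intro m
    simp only [Module.End.mul_apply, hc, hA, hA']
  have e0 : finrank F M = finrank F ↥(Fx A) + finrank F ↥(Kp A) := by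
    have h := split h2 hA ⊤ (fun _ _ => trivial)
    rwa [finrank_top, top_inf_eq, top_inf_eq] at h
  have e1 := split h2 hA' (Fx A) (fun m hm => by rw [mem_Fx] at hm ⊢; rw [hc, hm])
  have e2 := split h2 hA' (Kp A) (fun m hm => by
    rw [mem_Kp] at hm ⊢
    rw [hc, hc, ← map_add, ← map_add, hm, map_zero])
  have e3 := split h2 hA (Fx A') (fun m hm => by rw [mem_Fx] at hm ⊢; rw [← hc, hm])
  have e4 := split h2 hB (Kp A ⊓ Kp A') (fun m hm => by
    rw [Submodule.mem_inf, mem_Kp, mem_Kp] at hm ⊢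
    obtain ⟨h1, h3⟩ := hm
    constructor
    · have h4 := congrArg (fun x => A (A' x)) h1
      simp only [Module.End.mul_apply]
      simp only [map_add, map_zero, hc] at h4 ⊢
      exact h4
    · have h4 := congrArg (fun x => A (A' x)) h3
      simp only [Module.End.mul_apply]
      simp only [map_add, map_zero, hc] at h4 ⊢
      exact h4)
  have e5 := split h2 hA (Fx (A * A')) (fun m hm => by
    rw [mem_Fx] at hm ⊢
    rw [Module.End.mul_apply] at hm ⊢
    rw [← hc, hm])
  have e6 := split h2 hA (Fx (A * (A' * A'))) (fun m hm => by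
    rw [mem_Fx] at hm ⊢
    simp only [Module.End.mul_apply] at hm ⊢
    rw [← hc, ← hc, hm])
  have f1 : Kp A ⊓ Fx A' = Fx A' ⊓ Kp A := inf_comm _ _
  have f2 : Fx A' ⊓ Fx A = Fx A ⊓ Fx A' := inf_comm _ _
  have f3 : Fx (A * A') ⊓ Fx A = Fx A ⊓ Fx A' := by
    ext m
    rw [Submodule.mem_inf, Submodule.mem_inf, mem_Fx, mem_Fx, mem_Fx, Module.End.mul_apply]
    constructor
    · rintro ⟨h1, h3⟩
      refine ⟨h3, ?_⟩
      rwa [hc, h3] at h1
    · rintro ⟨h1, h3⟩
      refine ⟨?_, h1⟩
      rw [h3, h1]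
  have f4 : Fx (A * (A' * A')) ⊓ Fx A = Fx A ⊓ Fx A' := by
    ext m
    rw [Submodule.mem_inf, Submodule.mem_inf, mem_Fx, mem_Fx, mem_Fx]
    simp only [Module.End.mul_apply]
    constructor
    · rintro ⟨h1, h3⟩
      refine ⟨h3, ?_⟩
      rw [hc, hc, h3] at h1
      have h4 := congrArg A' h1
      rw [hA'] at h4
      exact h4.symm
    · rintro ⟨h1, h3⟩
      refine ⟨?_, h1⟩
      rw [h3, h3, h1]
  have g1 : ∀ m, (A * A') m = m → m + A m + A (A m) = 0 → m + A' m + A' (A' m) = 0 := by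
    intro m h1 h3
    rw [Module.End.mul_apply] at h1
    -- `A' m = A² m`
    have h4 : A' m = A (A m) := by
      have h5 := congrArg (fun x => A (A x)) h1
      simp only [hA] at h5
      exact h5
    have h5 : A' (A' m) = A m := by
      rw [h4, ← hc, ← hc, h4, hA]
    rw [h5, h4, ← h3]
    abel
  have g2 : ∀ m, (A * (A' * A')) m = m → m + A m + A (A m) = 0 → m + A' m + A' (A' m) = 0 := by
    intro m h1 h3
    simp only [Module.End.mul_apply] at h1
    have h4 : A' (A' m) = A (A m) := by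
      have h5 := congrArg (fun x => A (A x)) h1
      simp only [hA] at h5
      exact h5
    have h5 : A' m = A m := by
      have h6 := congrArg (fun x => A (A' x)) h4
      simp only [hA'] at h6
      rw [h6]
      simp only [← hc, hA]
    rw [h4, h5, ← h3]
  have f5 : Kp A ⊓ Kp A' ⊓ Fx (A * A') = Fx (A * A') ⊓ Kp A := by
    ext m
    rw [Submodule.mem_inf, Submodule.mem_inf, Submodule.mem_inf]
    constructor
    · rintro ⟨⟨h1, -⟩, h3⟩
      exact ⟨h3, h1⟩
    · rintro ⟨h1, h3⟩
      exact ⟨⟨h3, mem_Kp.2 (g1 m (mem_Fx.1 h1) (mem_Kp.1 h3))⟩, h1⟩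
  have f6 : Kp A ⊓ Kp A' ⊓ Kp (A * A') = Fx (A * (A' * A')) ⊓ Kp A := by
    have key : ∀ m, m + A m + A (A m) = 0 → m + A' m + A' (A' m) = 0 →
        (m + (A * A') m + (A * A') ((A * A') m)) + (m + (A * (A' * A')) m + (A * (A' * A')) ((A * (A' * A')) m)) = m := by
      intro m h1 h3
      have h4 : A (m + A' m + A' (A' m)) = 0 := by rw [h3, map_zero]
      have h5 : A (A (m + A' m + A' (A' m))) = 0 := by rw [h4, map_zero]
      simp only [Module.End.mul_apply]
      simp only [map_add, ← hc, hA'] at h4 h5 ⊢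
      have h6 : A m + A (A m) = m := by
        have h7 := eq_neg_of_add_eq_zero_right (a := m) (b := A m + A (A m)) (by rw [← add_assoc]; exact h1)
        rw [h7, neg0 h2]
      have h7 : A (A' m) + A (A' (A' m)) = A m := by
        have h8 := eq_neg_of_add_eq_zero_right (a := A m) (b := A (A' m) + A (A' (A' m))) (by rw [← add_assoc]; exact h4)
        rw [h8, neg0 h2]
      have h8 : A (A (A' m)) + A (A (A' (A' m))) = A (A m) := by
        have h9 := eq_neg_of_add_eq_zero_right (a := A (A m)) (b := A (A (A' m)) + A (A (A' (A' m))))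
          (by rw [← add_assoc]; exact h5)
        rw [h9, neg0 h2]
      have h9 : m + A (A' m) + A (A (A' (A' m))) + (m + A (A' (A' m)) + A (A (A' m))) =
          (m + m) + (A (A' m) + A (A' (A' m))) + (A (A (A' m)) + A (A (A' (A' m)))) := by abel
      rw [h9, h7, h8, two0 h2, zero_add, h6]
    ext m
    rw [Submodule.mem_inf, Submodule.mem_inf, Submodule.mem_inf, mem_Kp, mem_Kp, mem_Kp, mem_Fx]
    constructor
    · rintro ⟨⟨h1, h3⟩, h4⟩
      refine ⟨?_, h1⟩
      have h5 := key m h1 h3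
      rw [h4, zero_add] at h5
      rw [← h5]
      simp only [map_add]
      rw [hB']
      abel
    · rintro ⟨h1, h3⟩
      have h4 := g2 m h1 h3
      refine ⟨⟨h3, h4⟩, ?_⟩
      have h5 := key m h3 h4
      rw [h1, h1, two0 h2, zero_add] at h5
      exact add_eq_right.1 h5
  rw [f1] at e2
  rw [f2] at e3
  rw [f5, f6] at e4
  rw [f3] at e5
  rw [f4] at e6
  omega

end

end Cfsg.Agent.R2.T1.N6D.I2
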