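import Mathlib
import Cfsg.Agent.H952.F4.Defs

/-!
# S5929, `n = 6`, `p = 2`: linear algebra (helper25)

* `exists_rep` : functionals vanishing on the radical of a form are represented by vectors;
* `ev_quot` : the fixed space of an element of order prime to the characteristic on a quotient.
-/

set_option autoImplicit false

namespace Cfsg.Agent.R2.T1.N6D

open Module
open Cfsg.Agent.H952.F4 (ev)

universe u v

section rep
variable {F : Type u} [Field F] {M : Type v} [AddCommGroup M] [Module F M] [FiniteDimensional F M]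

/-- functionals which vanish on the radical are represented by vectors -/
theorem exists_rep (B : M →ₗ[F] M →ₗ[F] F) {Z : Submodule F M} (hZ : ∀ y, (∀ x, B x y = 0) ↔ y ∈ Z)
    (hs : ∀ x y, B x y = 0 → B y x = 0) (f : Module.Dual F M) (hf : ∀ z ∈ Z, f z = 0) : ∃ y, ∀ x, f x = B x y := by
  have hker : LinearMap.ker B.flip = Z := by
    ext y
    rw [LinearMap.mem_ker, ← hZ]
    constructor
    · intro h x
      have h1 := LinearMap.congr_fun h x
      rwa [LinearMap.flip_apply] at h1
    · intro h
      refine LinearMap.ext fun x => ?_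
      rw [LinearMap.flip_apply]
      exact h x
  have hle : LinearMap.range B.flip ≤ Z.dualAnnihilator := by
    rintro _ ⟨y, rfl⟩
    rw [Submodule.mem_dualAnnihilator]
    intro z hz
    rw [LinearMap.flip_apply]
    exact hs _ _ ((hZ z).2 hz y)
  have h1 := LinearMap.finrank_range_add_finrank_ker B.flip
  have h2 : finrank F Z + finrank F ↥(Z.dualAnnihilator) = finrank F M := Subspace.finrank_add_finrank_dualAnnihilator_eq Z
  rw [hker] at h1
  have heq : LinearMap.range B.flip = Z.dualAnnihilator := by
    refine Submodule.eq_of_le_of_finrank_eq hle ?_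
    have h3 : finrank F ↥(LinearMap.range B.flip) + finrank F Z = finrank F ↥(Z.dualAnnihilator) + finrank F Z := by
      rw [h1, add_comm, h2]
    exact Nat.add_right_cancel h3
  have h3 : f ∈ LinearMap.range B.flip := by
    rw [heq, Submodule.mem_dualAnnihilator]
    exact hf
  obtain ⟨y, hy⟩ := h3
  exact ⟨y, fun x => by rw [← hy, LinearMap.flip_apply]⟩

omit [FiniteDimensional F M] in
/-- the average -/
theorem exists_avg {N : ℕ} (hN : (N : F) ≠ 0) {T : Module.End F M} (hT : T ^ N = 1) {Z : Submodule F M} {m : M}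
    (h : T m - m ∈ Z) (hZ : ∀ z ∈ Z, T z ∈ Z) : ∃ m', T m' = m' ∧ m' - m ∈ Z := by
  have hpow : ∀ n : ℕ, (T ^ n) m - m ∈ Z := by
    intro n
    induction n with
    | zero => rw [pow_zero, Module.End.one_apply, sub_self]; exact Z.zero_mem
    | succ n ih =>
      have h1 := hZ _ ih
      have h2 : (T ^ (n + 1)) m - m = T ((T ^ n) m - m) + (T m - m) := by
        rw [pow_succ', Module.End.mul_apply, map_sub]
        abel
      rw [h2]
      exact Z.add_mem h1 h
  have hN0 : N ≠ 0 := by
    rintro rfl
    exact hN Nat.cast_zero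
  refine ⟨(N : F)⁻¹ • ∑ n ∈ Finset.range N, (T ^ n) m, ?_, ?_⟩
  · rw [map_smul, map_sum]
    congr 1
    have h1 : ∀ n, T ((T ^ n) m) = (T ^ (n + 1)) m := fun n => by rw [pow_succ', Module.End.mul_apply]
    simp only [h1]
    have h2 := Finset.sum_range_succ' (fun n => (T ^ n) m) N
    rw [Finset.sum_range_succ, hT, pow_zero] at h2
    exact (add_right_cancel h2).symm
  · have h1 : m = (N : F)⁻¹ • ∑ n ∈ Finset.range N, m := by
      rw [Finset.sum_const, Finset.card_range, ← Nat.cast_smul_eq_nsmul F, smul_smul, inv_mul_cancel₀ hN, one_smul]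
    nth_rewrite 2 [h1]
    rw [← smul_sub, ← Finset.sum_sub_distrib]
    exact Z.smul_mem _ (Z.sum_mem fun n _ => hpow n)

/-- **the fixed space on a quotient by fixed vectors** -/
theorem ev_quot {N : ℕ} (hN : (N : F) ≠ 0) {T : Module.End F M} (hT : T ^ N = 1) {Z : Submodule F M}
    (hZ : ∀ z ∈ Z, T z = z) {T' : Module.End F (M ⧸ Z)} (hT' : ∀ m, T' (Submodule.Quotient.mk m) = Submodule.Quotient.mk (T m)) :
    ev T 1 = ev T' 1 + finrank F Z := by
  have hmap : (Module.End.eigenspace T 1).map Z.mkQ = Module.End.eigenspace T' 1 := by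
    ext m
    rw [Module.End.mem_eigenspace_iff, one_smul, Submodule.mem_map]
    constructor
    · rintro ⟨w, hw, rfl⟩
      rw [Module.End.mem_eigenspace_iff, one_smul] at hw
      rw [Submodule.mkQ_apply, hT', hw]
    · intro hm
      obtain ⟨w, rfl⟩ := Submodule.Quotient.mk_surjective Z m
      rw [hT', Submodule.Quotient.eq] at hm
      obtain ⟨w', h1, h2⟩ := exists_avg hN hT hm fun z hz => by rw [hZ z hz]; exact hz
      refine ⟨w', ?_, ?_⟩
      · rw [Module.End.mem_eigenspace_iff, one_smul]
        exact h1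
      · rw [Submodule.mkQ_apply, Submodule.Quotient.eq]
        exact h2
  have hle : Z ≤ Module.End.eigenspace T 1 := by
    intro z hz
    rw [Module.End.mem_eigenspace_iff, one_smul]
    exact hZ z hz
  have h1 := LinearMap.finrank_range_add_finrank_ker (Z.mkQ.domRestrict (Module.End.eigenspace T 1))
  have h2 : LinearMap.range (Z.mkQ.domRestrict (Module.End.eigenspace T 1)) = Module.End.eigenspace T' 1 := by
    rw [← hmap]
    ext m
    rw [LinearMap.mem_range, Submodule.mem_map]
    constructor
    · rintro ⟨w, rfl⟩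
      exact ⟨w.1, w.2, rfl⟩
    · rintro ⟨w, hw, rfl⟩
      exact ⟨⟨w, hw⟩, rfl⟩
  have h3 : LinearMap.ker (Z.mkQ.domRestrict (Module.End.eigenspace T 1)) = Z.comap (Module.End.eigenspace T 1).subtype := by
    ext w
    rw [LinearMap.mem_ker, LinearMap.domRestrict_apply, Submodule.mkQ_apply, Submodule.Quotient.mk_eq_zero,
      Submodule.mem_comap]
    rfl
  have h4 : finrank F (Z.comap (Module.End.eigenspace T 1).subtype) = finrank F Z :=
    LinearEquiv.finrank_eq (Submodule.comapSubtypeEquivOfLe hle)
  rw [h2, h3, h4] at h1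
  exact h1.symm

end rep

end Cfsg.Agent.R2.T1.N6D
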