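import Cfsg.Agent.R2.T1.N6D.Lq
import Cfsg.Agent.R2.T1.N6D.Gen

/-!
# S5929, `n = 6`, `p = 2`: fixed points modulo the centre (helper25)

* `WX ψ` : the elements of the adjoint module fixed by `A_n` modulo the centre;
* `exists_H` : if there are non-central ones, there are non-central elements fixed by `H` modulo the centre.
-/

set_option autoImplicit false
set_option maxRecDepth 100000

namespace Cfsg.Agent.R2.T1.N6D

open Cfsg Cfsg.Lie Module
open Cfsg.Agent.H943.E7V.Block (D1 rho)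
open Cfsg.Agent.H952.F4 (ev MaxAlt)
open Cfsg.Agent.R2.T1

universe u

variable {F : Type u} [Field F] {n : ℕ} {H : Subgroup ↥(chevE7.group F)}
  {φ : ↥(alternatingGroup (Fin n)) →* ↥(chevE7.group F)} {ψ : ↥(alternatingGroup (Fin n)) →* Gh F}

theorem L_Z (g : Gh F) {z : chevE7.Idx → F} (hz : z ∈ Zc F) : L F g z ∈ Zc F := by
  rw [L_of_mem hz g]
  exact hz

/-- the elements of the adjoint module fixed by `A_n` modulo the centre -/
noncomputable def WX (ψ : ↥(alternatingGroup (Fin n)) →* Gh F) : Submodule F (chevE7.Idx → F) where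
  carrier := {v | ∀ a, L F (ψ a) v - v ∈ Zc F}
  zero_mem' := fun a => by
    rw [map_zero, sub_self]
    exact (Zc F).zero_mem
  add_mem' := by
    intro v w hv hw a
    have h : L F (ψ a) (v + w) - (v + w) = (L F (ψ a) v - v) + (L F (ψ a) w - w) := by
      rw [map_add]
      abel
    rw [h]
    exact (Zc F).add_mem (hv a) (hw a)
  smul_mem' := by
    intro c v hv a
    rw [map_smul, ← smul_sub]
    exact (Zc F).smul_mem c (hv a)

theorem mem_WX {v : chevE7.Idx → F} : v ∈ WX ψ ↔ ∀ a, L F (ψ a) v - v ∈ Zc F := Iff.rfl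

theorem Zc_le : Zc F ≤ WX ψ := fun z hz a => by
  rw [L_of_mem hz, sub_self]
  exact (Zc F).zero_mem

theorem L_range (hψ : Lift φ ψ) {x : Gh F} (hx : ad F x ∈ φ.range) {v : chevE7.Idx → F} (hv : v ∈ WX ψ) :
    L F x v - v ∈ Zc F := by
  obtain ⟨b, hb⟩ := hx
  have h1 : L F x = L F (ψ b) := by rw [L_eq, L_eq, hψ, hb]
  rw [h1]
  exact hv b

theorem L_mul (g k : Gh F) (v : chevE7.Idx → F) : L F (g * k) v = L F g (L F k v) := by
  rw [map_mul, Module.End.mul_apply]

theorem WX_stable (hM : MaxAlt H n φ) (hψ : Lift φ ψ) {g : Gh F} (hg : ad F g ∈ H) {v : chevE7.Idx → F} (hv : v ∈ WX ψ) :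
    L F g v ∈ WX ψ := by
  intro a
  have h1 : ad F (g⁻¹ * ψ a * g) ∈ φ.range := by
    rw [map_mul, map_mul, map_inv, hψ]
    have := hM.norm (ad F g)⁻¹ (inv_mem hg) (φ a) ⟨a, rfl⟩
    rwa [inv_inv] at this
  have h2 := L_Z g (L_range hψ h1 hv)
  have h3 : L F g (L F (g⁻¹ * ψ a * g) v - v) = L F (ψ a) (L F g v) - L F g v := by
    rw [map_sub, ← L_mul, ← L_mul]
    congr 3
    group
  rwa [h3] at h2

/-- the commutators of `H` are in `A_n` -/
theorem comm_mem' (hM : MaxAlt H n φ) {h k : ↥(chevE7.group F)} (hh : h ∈ H) (hk : k ∈ H) :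
    h⁻¹ * k⁻¹ * h * k ∈ φ.range := by
  have e : h⁻¹ * k⁻¹ * h * k = (h * h)⁻¹ * ((h * k⁻¹) * (h * k⁻¹)) * (k * k) := by group
  rw [e]
  exact mul_mem (mul_mem (inv_mem (hM.sq h hh)) (hM.sq _ (mul_mem hh (inv_mem hk)))) (hM.sq k hk)

theorem exists_H (hM : MaxAlt H n φ) (hψ : Lift φ ψ) (h2 : (2 : F) = 0) (hne : ∃ v ∈ WX ψ, v ∉ Zc F) :
    ∃ v, v ∉ Zc F ∧ ∀ g : Gh F, ad F g ∈ H → L F g v - v ∈ Zc F := by
  have key : ∀ (k : ℕ) (U : Submodule F (chevE7.Idx → F)), finrank F U ≤ k → U ≤ WX ψ → (∃ v ∈ U, v ∉ Zc F) →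
      (∀ g : Gh F, ad F g ∈ H → ∀ v ∈ U, L F g v ∈ U) →
      ∃ v, v ∉ Zc F ∧ ∀ g : Gh F, ad F g ∈ H → L F g v - v ∈ Zc F := by
    intro k
    induction k with
    | zero =>
      intro U hk _ hv _
      obtain ⟨v, hv, hvZ⟩ := hv
      exfalso
      have h1 : U = ⊥ := Submodule.finrank_eq_zero.1 (Nat.le_zero.1 hk)
      rw [h1, Submodule.mem_bot] at hv
      rw [hv] at hvZ
      exact hvZ (Zc F).zero_mem
    | succ k ih =>
      intro U hk hU hv hst
      by_cases hall : ∀ g : Gh F, ad F g ∈ H → ∀ v ∈ U, L F g v - v ∈ Zc F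
      · obtain ⟨v, hv, hvZ⟩ := hv
        exact ⟨v, hvZ, fun g hg => hall g hg v hv⟩
      push Not at hall
      obtain ⟨g, hg, v, hv, hvZ⟩ := hall
      let U' : Submodule F (chevE7.Idx → F) := U ⊓ (Zc F).comap (L F g - 1)
      have memU' : ∀ w, w ∈ U' ↔ w ∈ U ∧ L F g w - w ∈ Zc F := fun w => Iff.rfl
      refine ih U' ?_ (inf_le_left.trans hU) ⟨L F g v - v, ?_, hvZ⟩ ?_
      · have hlt : U' < U := by
          refine lt_of_le_of_ne inf_le_left fun h => hvZ ?_
          rw [← h] at hv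
          exact ((memU' v).1 hv).2
        have := Submodule.finrank_lt_finrank_of_lt hlt
        omega
      · rw [memU']
        refine ⟨U.sub_mem (hst g hg v hv) hv, ?_⟩
        have h1 : L F g (L F g v - v) - (L F g v - v) = (L F (g * g) v - v) - (2 : F) • (L F g v - v) := by
          rw [map_sub, ← L_mul, two_smul]
          abel
        rw [h1, h2, zero_smul, sub_zero]
        refine L_range hψ ?_ (hU hv)
        rw [map_mul]
        exact hM.sq _ hg
      · intro l hl w hw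
        obtain ⟨hw1, hw2⟩ := (memU' w).1 hw
        rw [memU']
        refine ⟨hst l hl w hw1, ?_⟩
        -- `g l w = l g c w` with `c` in `A_n`
        have hc : ad F (g⁻¹ * l⁻¹ * g * l) ∈ φ.range := by
          rw [map_mul, map_mul, map_mul, map_inv, map_inv]
          exact comm_mem' hM hg hl
        have h1 := L_range hψ hc (hU hw1)
        have h3 : L F g (L F l w) - L F l w = L F l (L F g (L F (g⁻¹ * l⁻¹ * g * l) w - w)) + L F l (L F g w - w) := by
          rw [map_sub, map_sub, map_sub, ← L_mul, ← L_mul, ← L_mul, ← L_mul]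
          have e : l * g * (g⁻¹ * l⁻¹ * g * l) = g * l := by group
          rw [e]
          abel
        rw [h3]
        exact (Zc F).add_mem (L_Z l (L_Z g h1)) (L_Z l hw2)
  exact key _ (WX ψ) le_rfl le_rfl hne fun g hg v hv => WX_stable hM hψ hg hv

end Cfsg.Agent.R2.T1.N6D
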