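import Cfsg.Agent.R2.T1.Inf.LForm
import Cfsg.Agent.R2.T2.Alg.Pow

/-!
# S5929, `n = 6`, `p = 2`: the centre of the Lie algebra in characteristic 2 (helper25)

* `Zc F` : the elements of the adjoint module which act as scalars on the module of degree 56; `L_of_mem` : fixed by the group;
* `zv`, `del_zv`, `finrank_Zc` : it is a line in characteristic 2;
* `kf_rad` : it is the radical of the invariant form;
* `mem_of_fixed` : elements fixed by the group modulo `Zc F` belong to `Zc F`.
-/

set_option autoImplicit false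
set_option maxRecDepth 100000

namespace Cfsg.Agent.R2.T1.N6D

open Cfsg Cfsg.Lie Module Matrix
open Cfsg.Agent.ChevalleyStructure Cfsg.Agent.ChevalleyStructure.Elts Cfsg.Agent.ChevalleyStructure.Columns
open Cfsg.Agent.H943.E7V.Block (D1 rho)
open Cfsg.Agent.R2.T1 Cfsg.Agent.R2.PX Cfsg.Agent.R2.T1.Mu Cfsg.Agent.R2.T2.Alg

universe u

/-- the centre of the Lie algebra -/
noncomputable def Zc (F : Type u) [Field F] : Submodule F (chevE7.Idx → F) :=
  (Submodule.span F {(1 : Matrix D1 D1 F)}).comap (del F)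

variable {F : Type u} [Field F]

theorem mem_Zc {v : chevE7.Idx → F} : v ∈ Zc F ↔ ∃ c : F, c • (1 : Matrix D1 D1 F) = del F v :=
  Submodule.mem_span_singleton

theorem L_of_mem {v : chevE7.Idx → F} (hv : v ∈ Zc F) (g : Gh F) : L F g v = v := by
  apply Mu.del_injective
  obtain ⟨c, hc⟩ := mem_Zc.1 hv
  rw [del_L', ← hc, Matrix.mul_smul, mul_one, Matrix.smul_mul, ← map_mul, mul_inv_cancel, map_one]

theorem cast_even (h2 : (2 : F) = 0) {a : ℤ} (h : a % 2 = 0) : (a : F) = 0 := by
  obtain ⟨k, rfl⟩ := Int.dvd_of_emod_eq_zero h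
  rw [Int.cast_mul, Int.cast_ofNat, h2, zero_mul]

/-- the central element -/
def zv (F : Type u) [Field F] : chevE7.Idx → F := Sum.elim (fun i => ((zc i.val : ℤ) : F)) fun _ => 0

theorem del_zv (h2 : (2 : F) = 0) : del F (zv F) = 1 := by
  have e : (1 : Matrix D1 D1 F) = ∑ i : Fin 7, ((zc i : ℤ) : F) • Hi F i := by
    rw [sum_Hi, ← Matrix.diagonal_one]
    congr 1
    funext b
    have h := of_decide_eq_true (List.all_eq_true.1 chkZ (nn b) (nn_mem b))
    have h3 : (((((List.range 7).map fun i => zc i * chevE8.cartan i (nn b)).sum - 1 : ℤ)) : F) = 0 :=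
      cast_even h2 (by omega)
    rw [Int.cast_sub, Int.cast_one] at h3
    exact (sub_eq_zero.1 h3).symm
  rw [e, del_apply]
  have h0 : ∑ s : Fin chevE7.nroots, zv F (Sum.inr s) • NM F s = 0 :=
    Finset.sum_eq_zero fun s _ => by show (0 : F) • _ = _; rw [zero_smul]
  rw [h0, add_zero]
  rfl

theorem zv_mem (h2 : (2 : F) = 0) : zv F ∈ Zc F := mem_Zc.2 ⟨1, by rw [one_smul, del_zv h2]⟩

theorem zv_ne : zv F ≠ 0 := by
  intro h
  have h1 := congrFun h (Sum.inl (⟨6, by decide⟩ : Fin chevE7.rank))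
  have h2 : ((zc 6 : ℤ) : F) = 0 := h1
  have h3 : zc 6 = 1 := rfl
  rw [h3, Int.cast_one] at h2
  exact one_ne_zero h2

theorem Zc_eq (h2 : (2 : F) = 0) : Zc F = Submodule.span F {zv F} := by
  apply le_antisymm
  · intro v hv
    obtain ⟨c, hc⟩ := mem_Zc.1 hv
    refine Submodule.mem_span_singleton.2 ⟨c, Mu.del_injective ?_⟩
    rw [map_smul, del_zv h2, hc]
  · rw [Submodule.span_singleton_le_iff_mem]
    exact zv_mem h2

theorem finrank_Zc (h2 : (2 : F) = 0) : finrank F (Zc F) = 1 := by
  rw [Zc_eq h2]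
  exact finrank_span_singleton zv_ne

/-! ### the radical of the form -/

/-- a partial inverse of the Cartan matrix modulo 2 -/
def iC2 : List (List ℤ) := [[0, 1, 1, 0, 0, 0, 0], [1, 0, 0, 1, 0, 1, 0], [1, 0, 0, 0, 0, 0, 0], [0, 1, 0, 0, 0, 0, 0],
  [0, 0, 0, 0, 0, 1, 0], [0, 0, 0, 0, 0, 0, 1], [0, 0, 0, 0, 0, 0, 0]]

theorem iC2_mul : ∀ k < 7, ∀ i < 7, ((∑ j : Fin 7, (iC2.getD k []).getD j.val 0 * car chevE7 j.val (chevE7.simple i)) -
    ((if k = i then 1 else 0) - zc k * if i = 6 then 1 else 0)) % 2 = 0 := by decide +kernel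

theorem car_zc : ∀ k < 7, (∑ j : Fin 7, car chevE7 k (chevE7.simple j.val) * zc j.val) % 2 = 0 := by decide +kernel

theorem cartan_ker (h2 : (2 : F) = 0) {y : Fin chevE7.rank → F}
    (h : ∀ i : Fin chevE7.rank, ∑ j : Fin chevE7.rank, (car chevE7 i.val (chevE7.simple j.val) : F) * y j = 0)
    (k : Fin chevE7.rank) : y k = ((zc k.val : ℤ) : F) * y ⟨6, by decide⟩ := by
  have h1 : ∑ i : Fin chevE7.rank, (((iC2.getD k.val []).getD i.val 0 : ℤ) : F) *
      (∑ j : Fin chevE7.rank, (car chevE7 i.val (chevE7.simple j.val) : F) * y j) = 0 :=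
    Finset.sum_eq_zero fun i _ => by rw [h, mul_zero]
  have h3 : ∑ i : Fin chevE7.rank, (((iC2.getD k.val []).getD i.val 0 : ℤ) : F) *
      (∑ j : Fin chevE7.rank, (car chevE7 i.val (chevE7.simple j.val) : F) * y j) =
      ∑ j : Fin chevE7.rank, ((∑ i : Fin chevE7.rank, (iC2.getD k.val []).getD i.val 0 *
        car chevE7 i.val (chevE7.simple j.val) : ℤ) : F) * y j := by
    push_cast
    simp only [Finset.mul_sum, Finset.sum_mul]
    rw [Finset.sum_comm]
    exact Finset.sum_congr rfl fun i _ => Finset.sum_congr rfl fun j _ => (mul_assoc _ _ _).symm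
  rw [h3] at h1
  set l : Fin chevE7.rank := ⟨6, by decide⟩ with hl
  have h4 : ∀ j : Fin chevE7.rank, ((∑ i : Fin chevE7.rank, (iC2.getD k.val []).getD i.val 0 *
        car chevE7 i.val (chevE7.simple j.val) : ℤ) : F) = (if k = j then 1 else 0) - ((zc k.val : ℤ) : F) *
          if j = l then 1 else 0 := by
    intro j
    have h5 := cast_even h2 (iC2_mul k.val k.2 j.val j.2)
    have h6 : (k.val = j.val) ↔ (k = j) := ⟨fun h => Fin.ext h, fun h => congrArg Fin.val h⟩
    have h7 : (j.val = 6) ↔ (j = l) := ⟨fun h => Fin.ext h, fun h => congrArg Fin.val h⟩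
    simp only [h6, h7] at h5
    rw [Int.cast_sub, sub_eq_zero] at h5
    refine h5.trans ?_
    push_cast
    rfl
  simp only [h4, sub_mul, Finset.sum_sub_distrib] at h1
  rw [Finset.sum_eq_single k, if_pos rfl, one_mul, Finset.sum_eq_single l, if_pos rfl, mul_one] at h1
  · exact sub_eq_zero.1 h1
  · intro j _ hj
    rw [if_neg hj, mul_zero, zero_mul]
  · intro h; exact absurd (Finset.mem_univ _) h
  · intro j _ hj
    rw [if_neg (Ne.symm hj), zero_mul]
  · intro h; exact absurd (Finset.mem_univ _) h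

theorem KM_zv (h2 : (2 : F) = 0) : KM F *ᵥ zv F = 0 := by
  funext a
  rcases a with i | u
  · rw [KM_mulVec_inl]
    have h1 := cast_even h2 (car_zc i.val i.2)
    rw [Int.cast_sum] at h1
    simp only [Int.cast_mul] at h1
    exact h1
  · rw [KM_mulVec_inr]
    rfl

/-- **the centre is the radical of the form** -/
theorem kf_rad (h2 : (2 : F) = 0) {y : chevE7.Idx → F} : (∀ x, kf F x y = 0) ↔ y ∈ Zc F := by
  constructor
  · intro h
    have h1 : ∀ a, (KM F *ᵥ y) a = 0 := by
      intro a
      have h3 := h (Pi.single a 1)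
      rwa [kf_apply, single_one_dotProduct] at h3
    rw [Zc_eq h2]
    refine Submodule.mem_span_singleton.2 ⟨y (Sum.inl ⟨6, by decide⟩), ?_⟩
    funext a
    rw [Pi.smul_apply, smul_eq_mul]
    rcases a with i | u
    · have h3 := cartan_ker h2 (y := fun j => y (Sum.inl j)) (fun i => by
        rw [← KM_mulVec_inl]; exact h1 _) i
      rw [h3, mul_comm]
      rfl
    · have h3 := h1 (Sum.inr (ng u))
      rw [KM_mulVec_inr, ng_ng] at h3
      rw [h3]
      exact mul_zero _
  · intro hy x
    rw [Zc_eq h2] at hy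
    obtain ⟨c, rfl⟩ := Submodule.mem_span_singleton.1 hy
    rw [map_smul, kf_apply, KM_zv h2, dotProduct_zero, smul_zero]

/-! ### no fixed points modulo the centre -/

theorem sum_ex : ∀ u < 126, ((List.range 126).any fun r => (List.range 126).any fun s =>
    decide (F7 r s = [(u, 1)]) || decide (F7 r s = [(u, -1)])) = true := by decide +kernel

theorem exists_sum (u : Fin chevE7.nroots) : ∃ (r : ℕ) (s : Fin chevE7.nroots) (c : ℤ), r < 126 ∧ c * c = 1 ∧
    F7 r s.val = [(u.val, c)] := by
  have h := sum_ex u.val u.2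
  obtain ⟨r, hr, h⟩ := List.any_eq_true.1 h
  obtain ⟨s, hs, h⟩ := List.any_eq_true.1 h
  rcases Bool.or_eq_true_iff.1 h with h | h
  · exact ⟨r, ⟨s, List.mem_range.1 hs⟩, 1, List.mem_range.1 hr, by norm_num, of_decide_eq_true h⟩
  · exact ⟨r, ⟨s, List.mem_range.1 hs⟩, -1, List.mem_range.1 hr, by norm_num, of_decide_eq_true h⟩

/-- **elements fixed by the group modulo the centre are central** -/
theorem mem_of_fixed (h2 : (2 : F) = 0) {v : chevE7.Idx → F} (h : ∀ g : Gh F, L F g v - v ∈ Zc F) : v ∈ Zc F := by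
  -- the orthogonal space
  have key : ∀ (g : Gh F) (x : chevE7.Idx → F), kf F (L F g x) v = kf F x v := by
    intro g x
    have h1 := (kf_rad h2).2 (h g⁻¹) x
    rw [map_sub, sub_eq_zero] at h1
    rw [← h1]
    have h3 := kf_L g⁻¹ (L F g x) v
    rw [← h3, ← Module.End.mul_apply, ← map_mul, inv_mul_cancel, map_one, Module.End.one_apply]
  have key2 : ∀ {r : ℕ} (hr : r < 126) (x : chevE7.Idx → F), kf F (EM F r *ᵥ x) v + kf F (QM F r *ᵥ x) v = 0 := by
    intro r hr x
    have h1 := key (xs F r 1) x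
    rw [L_xs hr, one_smul, one_pow, one_smul, map_add, map_add, LinearMap.add_apply, LinearMap.add_apply] at h1
    linear_combination h1
  have her : ∀ u : Fin chevE7.nroots, kf F (er F u) v = 0 := by
    intro u
    obtain ⟨r, s, c, hr, hc, hF⟩ := exists_sum u
    have h1 := key2 hr (er F s)
    have hs : s.val ≠ 125 - r := by
      intro h1
      rw [h1, F7_neg hr] at hF
      exact absurd hF (by simp)
    have h3 : QM F r *ᵥ er F s = 0 := by
      have h4 := QM_mulVec (F := F) (r := ⟨r, hr⟩) (er F s)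
      have h5 : er F s (Sum.inr (ng ⟨r, hr⟩)) = 0 := by
        rw [er, Pi.single_eq_of_ne]
        intro h6
        exact hs (congrArg Fin.val (Sum.inr.inj h6)).symm
      rw [h5, neg_zero, zero_smul] at h4
      exact h4
    rw [h3, map_zero, LinearMap.zero_apply, add_zero, EM_er s u hF hr, map_smul, LinearMap.smul_apply, smul_eq_mul] at h1
    exact (mul_eq_zero.1 h1).resolve_left (cast_ne hc)
  have heh : ∀ i : Fin chevE7.rank, kf F (eh F i) v = 0 := by
    intro i
    have hr : chevE7.simple i.val < 126 := simple7_lt i.val i.2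
    set r := chevE7.simple i.val with hrd
    have h1 := key2 hr (er F (ng ⟨r, hr⟩))
    have h3 : QM F r *ᵥ er F (ng ⟨r, hr⟩) = -er F ⟨r, hr⟩ := by
      have h4 := QM_mulVec (F := F) (r := ⟨r, hr⟩) (er F (ng ⟨r, hr⟩))
      have h5 : er F (ng ⟨r, hr⟩) (Sum.inr (ng ⟨r, hr⟩)) = 1 := by
        rw [er, Pi.single_eq_same]
      rw [h5, neg_smul, one_smul] at h4
      exact h4
    have h6 : EM F r *ᵥ er F (ng ⟨r, hr⟩) = eh F i := by
      rw [EM_er_neg hr (ng ⟨r, hr⟩) rfl, Finset.sum_eq_single i]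
      · have h7 := cor_simple i.val i.2 i.val i.2
        rw [if_pos rfl] at h7
        rw [hrd, h7, Int.cast_one, one_smul]
      · intro j _ hj
        have h7 := cor_simple i.val i.2 j.val j.2
        rw [if_neg (fun h' => hj (Fin.ext h'))] at h7
        rw [hrd, h7, Int.cast_zero, zero_smul]
      · intro h; exact absurd (Finset.mem_univ _) h
    rw [h3, h6, map_neg, LinearMap.neg_apply, her, neg_zero, add_zero] at h1
    exact h1
  rw [← kf_rad h2]
  intro x
  have hx : x = (∑ i : Fin chevE7.rank, x (Sum.inl i) • eh F i) + ∑ s : Fin chevE7.nroots, x (Sum.inr s) • er F s := by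
    funext a
    rw [Pi.add_apply, Finset.sum_apply, Finset.sum_apply]
    simp only [Pi.smul_apply, smul_eq_mul, eh, er]
    rcases a with i | s
    · rw [Finset.sum_eq_single i, Pi.single_eq_same, mul_one, Finset.sum_eq_zero, add_zero]
      · intro s _
        rw [Pi.single_eq_of_ne (by simp), mul_zero]
      · intro j _ hj
        rw [Pi.single_eq_of_ne (by simp [Ne.symm hj]), mul_zero]
      · intro h; exact absurd (Finset.mem_univ _) h
    · rw [Finset.sum_eq_zero, zero_add, Finset.sum_eq_single s, Pi.single_eq_same, mul_one]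
      · intro j _ hj
        rw [Pi.single_eq_of_ne (by simp [Ne.symm hj]), mul_zero]
      · intro h; exact absurd (Finset.mem_univ _) h
      · intro j _
        rw [Pi.single_eq_of_ne (by simp), mul_zero]
  rw [hx, map_add, LinearMap.add_apply, map_sum, map_sum, LinearMap.sum_apply, LinearMap.sum_apply,
    Finset.sum_eq_zero, Finset.sum_eq_zero, add_zero]
  · intro s _
    rw [map_smul, LinearMap.smul_apply, her, smul_zero]
  · intro i _
    rw [map_smul, LinearMap.smul_apply, heh, smul_zero]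

end Cfsg.Agent.R2.T1.N6D
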