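import Cfsg.Agent.R2.T1.N6D.Fix
import Cfsg.Agent.R2.T1.N6D.Out
import Cfsg.Agent.R2.T1.Inf.PatF

/-!
# S5929, `n = 6`, `p = 2`: fixed points of `H` on the adjoint module modulo the centre (helper25)

* `Ineq F a b c` : the inequality for the modules of `A₆` in characteristic 2 without trivial sub- and quotient modules;
* `exists_fix` : `4 ∣ |F|`..., `|H| ≤ 720`, and `H` fixes a non-central element of the adjoint module modulo the centre.
-/

set_option autoImplicit false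
set_option maxRecDepth 100000

namespace Cfsg.Agent.R2.T1.N6D

open Cfsg Cfsg.Lie Module Equiv Equiv.Perm
open Cfsg.Agent.H943.E7V.Block (D1 rho)
open Cfsg.Agent.H952.F4 (ev MaxAlt)
open Cfsg.Agent.R2.T1

universe u v

/-- the inequality for the modules of `A₆` in characteristic 2 -/
def Ineq (F : Type u) [Field F] (a b c : ↥(alternatingGroup (Fin 6))) : Prop :=
  ∀ (M : Type u) [AddCommGroup M] [Module F M] [FiniteDimensional F M]
    (ρ : Representation F ↥(alternatingGroup (Fin 6)) M), ρ.invariants = ⊥ →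
    (∀ f : Module.Dual F M, (∀ g m, f (ρ g m) = f m) → f = 0) →
    4 * (ev (ρ a) 1 + ev (ρ b) 1) + 12 * ev (ρ c) 1 ≤ 5 * finrank F M

/-- the dimension of the fixed space of the Sylow 3-subgroup is nonnegative -/
def Low (F : Type u) [Field F] (a b : ↥(alternatingGroup (Fin 6))) : Prop :=
  ∀ (M : Type u) [AddCommGroup M] [Module F M] [FiniteDimensional F M]
    (ρ : Representation F ↥(alternatingGroup (Fin 6)) M), finrank F M ≤ 2 * (ev (ρ a) 1 + ev (ρ b) 1)

section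
variable {F : Type u} [Field F]

theorem ad_inj (h2 : (2 : F) = 0) : Function.Injective (ad F) := by
  rw [← MonoidHom.ker_eq_bot_iff, eq_bot_iff]
  intro z hz
  rw [MonoidHom.mem_ker] at hz
  rw [Subgroup.mem_bot]
  rcases ad_eq_one_iff.1 hz with h | h
  · exact faithful h
  · apply faithful
    rw [h]
    refine LinearMap.ext fun v => ?_
    show -v = v
    funext s
    show -(v s) = v s
    linear_combination (-(v s)) * h2

/-- the module of degree 132 -/
noncomputable def Lq (F : Type u) [Field F] : Representation F (Gh F) ((chevE7.Idx → F) ⧸ Zc F) :=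
  (L F).quotient (Zc F) fun g z hz => by
    rw [Submodule.mem_comap]
    exact L_Z g hz

theorem Lq_mk (g : Gh F) (v : chevE7.Idx → F) :
    Lq F g (Submodule.Quotient.mk v) = Submodule.Quotient.mk (L F g v) := rfl

theorem finrank_Lq (h2 : (2 : F) = 0) : finrank F ((chevE7.Idx → F) ⧸ Zc F) = 132 := by
  have h1 := Submodule.finrank_quotient_add_finrank (Zc F)
  rw [finrank_Zc h2, finrank_L] at h1
  omega

theorem ev_Lq (h2 : (2 : F) = 0) {N : ℕ} (hN : (N : F) ≠ 0) {x : Gh F} (hx : x ^ N = 1) :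
    ev (L F x) 1 = ev (Lq F x) 1 + 1 := by
  rw [← finrank_Zc h2]
  refine ev_quot hN (T := L F x) (T' := Lq F x) ?_ (fun z hz => L_of_mem hz x) fun m => Lq_mk x m
  rw [← map_pow, hx, map_one]

variable {H : Subgroup ↥(chevE7.group F)}
  {φ : ↥(alternatingGroup (Fin 6)) →* ↥(chevE7.group F)} {ψ : ↥(alternatingGroup (Fin 6)) →* Gh F}

/-- the inequality on the module of degree 132 -/
theorem ineqL (h2 : (2 : F) = 0) {a b c : ↥(alternatingGroup (Fin 6))} (hI : Ineq F a b c)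
    (hW : ∀ v ∈ WX ψ, v ∈ Zc F) :
    4 * (ev (Lq F (ψ a)) 1 + ev (Lq F (ψ b)) 1) + 12 * ev (Lq F (ψ c)) 1 ≤ 660 := by
  have h1 := hI ((chevE7.Idx → F) ⧸ Zc F) (MonoidHom.comp (Lq F) ψ) ?_ ?_
  · rw [finrank_Lq h2] at h1
    exact h1
  · rw [eq_bot_iff]
    intro m hm
    rw [Representation.mem_invariants] at hm
    obtain ⟨v, rfl⟩ := Submodule.Quotient.mk_surjective (Zc F) m
    rw [Submodule.mem_bot, Submodule.Quotient.mk_eq_zero]
    refine hW v fun g => ?_
    have h3 := hm g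
    rw [MonoidHom.comp_apply, Lq_mk, Submodule.Quotient.eq] at h3
    exact h3
  · intro f hf
    obtain ⟨y, hy⟩ := exists_rep (kf F) (Z := Zc F) (fun y => kf_rad h2) (fun x y h => by rw [kf_comm]; exact h)
      (f.comp (Zc F).mkQ) (fun z hz => by
        rw [LinearMap.comp_apply, Submodule.mkQ_apply, (Submodule.Quotient.mk_eq_zero _).2 hz, map_zero])
    have hyW : y ∈ WX ψ := by
      intro g
      rw [← kf_rad h2]
      intro x
      rw [map_sub, sub_eq_zero]
      have h3 := hf g⁻¹ (Submodule.Quotient.mk x)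
      rw [MonoidHom.comp_apply, Lq_mk] at h3
      have h4 := hy (L F (ψ g⁻¹) x)
      have h5 := hy x
      rw [LinearMap.comp_apply, Submodule.mkQ_apply] at h4 h5
      rw [h3, h5] at h4
      rw [h4]
      have h6 := kf_L (ψ g) (L F (ψ g⁻¹) x) y
      rw [← h6, ← L_mul, ← map_mul, mul_inv_cancel, map_one, map_one, Module.End.one_apply]
    have hyZ := hW y hyW
    refine LinearMap.ext fun m => ?_
    obtain ⟨v, rfl⟩ := Submodule.Quotient.mk_surjective (Zc F) m
    have h5 := hy v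
    rw [LinearMap.comp_apply, Submodule.mkQ_apply] at h5
    rw [h5, (kf_rad h2).2 hyZ v, LinearMap.zero_apply]

/-- the functionals on `V` -/
theorem dualV (h : Representation.invariants (MonoidHom.comp (V F) ψ) = ⊥) (f : Module.Dual F (D1 → F))
    (hf : ∀ g m, f (MonoidHom.comp (V F) ψ g m) = f m) : f = 0 := by
  obtain ⟨y, hy⟩ := exists_rep (sf F) (Z := ⊥) (fun y => by
    rw [Submodule.mem_bot]
    constructor
    · exact sf_nondeg
    · rintro rfl x
      rw [map_zero]) (fun x y h => by rw [sf_swap, h, neg_zero]) f (fun z hz => by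
        rw [(Submodule.mem_bot _).1 hz, map_zero])
  have hy0 : y ∈ Representation.invariants (MonoidHom.comp (V F) ψ) := by
    rw [Representation.mem_invariants]
    intro g
    rw [MonoidHom.comp_apply, ← sub_eq_zero]
    refine sf_nondeg fun x => ?_
    rw [map_sub, sub_eq_zero]
    have h3 := hf g⁻¹ x
    rw [hy, hy] at h3
    rw [← h3, MonoidHom.comp_apply]
    have h6 := sf_V (ψ g) (V F (ψ g⁻¹) x) y
    rw [← h6, ← V_mul, ← map_mul, mul_inv_cancel, map_one, V_one]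
  rw [h, Submodule.mem_bot] at hy0
  refine LinearMap.ext fun v => ?_
  rw [hy, hy0, map_zero, LinearMap.zero_apply]

variable [Finite F]

/-- the inequality on the module of degree 56 -/
theorem ineqV (hM : MaxAlt H 6 φ) (hψ : Lift φ ψ) {a b c : ↥(alternatingGroup (Fin 6))} (hI : Ineq F a b c) :
    4 * (ev (V F (ψ a)) 1 + ev (V F (ψ b)) 1) + 12 * ev (V F (ψ c)) 1 ≤ 280 := by
  have h0 := no_fixed hM (by norm_num) (by norm_num) hψ
  have h1 := hI (D1 → F) (MonoidHom.comp (V F) ψ) h0 (dualV h0)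
  rw [finrank_V] at h1
  exact h1

omit [Finite F] in
theorem lift_inj (hM : MaxAlt H 6 φ) (hψ : Lift φ ψ) {a : ↥(alternatingGroup (Fin 6))} (ha : a ≠ 1) : ψ a ≠ 1 := by
  intro h
  apply ha
  apply hM.inj
  rw [map_one, ← hψ, h, map_one]

omit [Finite F] in
theorem odd_ne (h2 : (2 : F) = 0) {N : ℕ} (hN : Odd N) : ((N : ℕ) : F) ≠ 0 := by
  obtain ⟨m, rfl⟩ := hN
  rw [Nat.cast_add, Nat.cast_mul, Nat.cast_ofNat, h2, zero_mul, zero_add, Nat.cast_one]
  exact one_ne_zero

/-- **`A₆` fixes a non-central element modulo the centre** -/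
theorem exists_WX (hM : MaxAlt H 6 φ) (hψ : Lift φ ψ) (h2 : (2 : F) = 0) {a b c : ↥(alternatingGroup (Fin 6))}
    (ha : a ^ 3 = 1) (hb : b ^ 3 = 1) (hc : c ^ 5 = 1) (ha1 : a ≠ 1) (hb1 : b ≠ 1) (hc1 : c ≠ 1)
    (hI : Ineq F a b c) : ∃ v ∈ WX ψ, v ∉ Zc F := by
  by_contra hcon
  push Not at hcon
  have iV := ineqV hM hψ hI
  have iL := ineqL h2 hI hcon
  have h3 : (3 : F) ≠ 0 := by exact_mod_cast odd_ne h2 (N := 3) (by decide)
  have h5 : (5 : F) ≠ 0 := by exact_mod_cast odd_ne h2 (N := 5) (by decide)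
  have hA : ψ a ^ 3 = 1 := by rw [← map_pow, ha, map_one]
  have hB : ψ b ^ 3 = 1 := by rw [← map_pow, hb, map_one]
  have hC : ψ c ^ 5 = 1 := by rw [← map_pow, hc, map_one]
  have eA := ev_Lq h2 (N := 3) (by exact_mod_cast h3) hA
  have eB := ev_Lq h2 (N := 3) (by exact_mod_cast h3) hB
  have eC := ev_Lq h2 (N := 5) (by exact_mod_cast h5) hC
  have tA := three h3 hA (lift_inj hM hψ ha1)
  have tB := three h3 hB (lift_inj hM hψ hb1)
  obtain ⟨P, hP, p1, p2, -⟩ := patF5 h5 hC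
  have key : ∀ P ∈ T5, P.1.getD 0 0 = 56 ∨ (P.1.getD 0 0 = 12 ∧ P.2.getD 0 0 = 27) ∨ 29 ≤ P.2.getD 0 0 := by decide
  rcases key P hP with h | h | h
  · rw [h] at p1
    exact lift_inj hM hψ hc1 (eq_one_of_ev p1)
  · rw [h.1] at p1
    rw [h.2] at p2
    omega
  · omega

/-- **elements of order 5** -/
theorem five_tau (hM : MaxAlt H 6 φ) (hψ : Lift φ ψ) (h2 : (2 : F) = 0) {a b c : ↥(alternatingGroup (Fin 6))}
    (hc : c ^ 5 = 1) (hc1 : c ≠ 1) (hI : Ineq F a b c) (hl : Low F a b) :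
    ∃ (τ : F) (m1 m2 : ℕ), τ * τ + τ - 1 = 0 ∧ m1 ≠ m2 ∧
      finrank F ↥(LinearMap.ker (Five.qd τ (V F (ψ c)))) = 2 * m1 ∧
      finrank F ↥(LinearMap.ker (Five.qd (-1 - τ) (V F (ψ c)))) = 2 * m2 := by
  have iV := ineqV hM hψ hI
  have lV := hl (D1 → F) (MonoidHom.comp (V F) ψ)
  rw [finrank_V, MonoidHom.comp_apply, MonoidHom.comp_apply] at lV
  have h5 : (5 : F) ≠ 0 := by exact_mod_cast odd_ne h2 (N := 5) (by decide)
  have hC : ψ c ^ 5 = 1 := by rw [← map_pow, hc, map_one]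
  obtain ⟨P, hP, p1, -, h3⟩ := patF5 h5 hC
  have key : ∀ P ∈ T5, P.1.getD 0 0 = 56 ∨ 16 ≤ P.1.getD 0 0 ∨ P.1.getD 1 0 ≠ P.1.getD 2 0 := by decide
  rcases key P hP with h | h | h
  · rw [h] at p1
    exact absurd (eq_one_of_ev p1) (lift_inj hM hψ hc1)
  · omega
  · rcases h3 with ⟨h4, -⟩ | ⟨τ, h4, h6, -, h7, -⟩
    · exact absurd h4 h
    · exact ⟨τ, _, _, h4, h, h6, h7⟩

omit [Finite F] in
theorem ker_qd_le {M : Type v} [AddCommGroup M] [Module F M] (t : F) (T : Module.End F M) :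
    LinearMap.ker (Five.qd t T) ≤ LinearMap.ker (Five.qd (t * t - 2) (T * T)) := by
  intro u hu
  rw [Five.mem_ker_qd] at hu ⊢
  have h3 : T (T (T u)) = t • T (T u) - T u := by rw [hu, map_sub, map_smul, hu]
  have h4 : T (T (T (T u))) = t • T (T (T u)) - T (T u) := by rw [h3, map_sub, map_smul, h3]
  rw [Module.End.mul_apply, Module.End.mul_apply, h4, h3, hu]
  module

omit [Finite F] in
theorem qd_conj (g x : Gh F) (t : F) : finrank F ↥(LinearMap.ker (Five.qd t (V F (g * x * g⁻¹)))) =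
    finrank F ↥(LinearMap.ker (Five.qd t (V F x))) := by
  have hmap : (LinearMap.ker (Five.qd t (V F x))).map (V F g) = LinearMap.ker (Five.qd t (V F (g * x * g⁻¹))) := by
    ext u
    rw [Submodule.mem_map]
    constructor
    · rintro ⟨w, hw, rfl⟩
      rw [Five.mem_ker_qd] at hw ⊢
      have h1 : ∀ w, V F (g * x * g⁻¹) (V F g w) = V F g (V F x w) := by
        intro w
        rw [← V_mul, ← V_mul]
        congr 2
        group
      rw [h1, h1, hw, map_sub, map_smul]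
    · intro hu
      refine ⟨V F g⁻¹ u, ?_, V_inv' g u⟩
      rw [Five.mem_ker_qd] at hu ⊢
      have h1 : ∀ w, V F x (V F g⁻¹ w) = V F g⁻¹ (V F (g * x * g⁻¹) w) := by
        intro w
        rw [← V_mul, ← V_mul]
        congr 2
        group
      rw [h1, h1, hu, map_sub, map_smul]
  rw [← hmap]
  exact Five.finrank_map_inj (f := V F g) (fun a b h => by
    rw [← V_inv g a, ← V_inv g b, h]) _

omit [Finite F] in
/-- fused elements of order 5 are rational -/
theorem fuse {τ : F} (hτ : τ * τ + τ - 1 = 0) {g x : Gh F} (h : g * x * g⁻¹ = x ^ 2) :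
    finrank F ↥(LinearMap.ker (Five.qd τ (V F x))) = finrank F ↥(LinearMap.ker (Five.qd (-1 - τ) (V F x))) := by
  have e1 : τ * τ - 2 = -1 - τ := by linear_combination hτ
  have e2 : (-1 - τ) * (-1 - τ) - 2 = τ := by linear_combination hτ
  have h1 : V F x * V F x = V F (g * x * g⁻¹) := by rw [h, pow_two, map_mul]
  apply le_antisymm
  · have h3 := Submodule.finrank_mono (ker_qd_le τ (V F x))
    rw [e1, h1, qd_conj] at h3
    exact h3
  · have h3 := Submodule.finrank_mono (ker_qd_le (-1 - τ) (V F x))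
    rw [e2, h1, qd_conj] at h3
    exact h3

/-- the field has a primitive cube root of unity -/
theorem card_mod_three (h2 : (2 : F) = 0) {τ : F} (hτ : τ * τ + τ - 1 = 0) : Nat.card F % 3 = 1 := by
  have hτ0 : τ ≠ 0 := by
    rintro rfl
    rw [mul_zero, zero_add, zero_sub, neg_eq_zero] at hτ
    exact one_ne_zero hτ
  have hτ1 : τ ≠ 1 := by
    rintro rfl
    rw [mul_one, add_sub_cancel_right] at hτ
    exact one_ne_zero hτ
  have h3 : τ ^ 3 = 1 := by linear_combination (τ - 1) * hτ + (τ - 1) * h2 + 0 * h2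
  set u : Fˣ := Units.mk0 τ hτ0 with hu
  have ho : orderOf u = 3 := by
    apply orderOf_eq_prime
    · apply Units.ext
      rw [Units.val_pow_eq_pow_val, Units.val_one]
      exact h3
    · intro h
      exact hτ1 (congrArg Units.val h)
  have h4 : 3 ∣ Nat.card Fˣ := ho ▸ orderOf_dvd_natCard u
  rw [Nat.card_units] at h4
  have h5 : 1 < Nat.card F := Finite.one_lt_card
  omega

open Cfsg.Agent.H952.F4.MaxA (z5' r4 z5'_sign r4_sign r4_conj z5'_pow z5'_ne)

/-- the 5-cycle -/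
def z5 : ↥(alternatingGroup (Fin 6)) := ⟨z5', mem_alternatingGroup.2 z5'_sign⟩

theorem z5_pow : z5 ^ 5 = 1 := Subtype.ext z5'_pow

theorem z5_ne : z5 ≠ 1 := fun h => z5'_ne (congrArg Subtype.val h)

omit [Finite F] in
/-- no fusion of the elements of order 5 (only one element is needed) -/
theorem odd_of_z5 (hM : MaxAlt H 6 φ) (h5 : ∀ h ∈ H, h * φ z5 * h⁻¹ ≠ φ (z5 ^ 2)) : NoOdd H φ := by
  intro h hh σ hσ hcon
  have ht : sign (r4 * σ⁻¹) = 1 := by rw [map_mul, map_inv, hσ, r4_sign]; decide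
  set t : ↥(alternatingGroup (Fin 6)) := ⟨r4 * σ⁻¹, mem_alternatingGroup.2 ht⟩ with htd
  have hb : sign (σ * z5' * σ⁻¹) = 1 := by
    rw [map_mul, map_mul, map_inv, z5'_sign, mul_one, mul_inv_cancel]
  have h1 := hcon z5 ⟨σ * z5' * σ⁻¹, mem_alternatingGroup.2 hb⟩ rfl
  refine h5 (φ t * h) (mul_mem (hM.le ⟨t, rfl⟩) hh) ?_
  have h2 : t * ⟨σ * z5' * σ⁻¹, mem_alternatingGroup.2 hb⟩ * t⁻¹ = z5 ^ 2 := by
    apply Subtype.ext
    show r4 * σ⁻¹ * (σ * z5' * σ⁻¹) * (r4 * σ⁻¹)⁻¹ = z5' ^ 2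
    rw [← r4_conj]
    group
  rw [← h2, map_mul, map_mul, map_inv, ← h1]
  group

/-- **the field and the order of `H`** -/
theorem card_H (hM : MaxAlt H 6 φ) (hψ : Lift φ ψ) (h2 : (2 : F) = 0) {a b : ↥(alternatingGroup (Fin 6))}
    (hI : Ineq F a b z5) (hl : Low F a b) : Nat.card F % 3 = 1 ∧ Nat.card ↥H ≤ 720 := by
  obtain ⟨τ, m1, m2, hτ, hne, e1, e2⟩ := five_tau hM hψ h2 z5_pow z5_ne hI hl
  refine ⟨card_mod_three h2 hτ, card_le_720 hM (odd_of_z5 hM fun h _ hcon => hne ?_)⟩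
  obtain ⟨g, hg⟩ := ad_surjective h
  have h3 : g * ψ z5 * g⁻¹ = ψ z5 ^ 2 := by
    apply ad_inj h2
    rw [map_mul, map_mul, map_inv, hg, hψ, hcon, map_pow, map_pow, hψ]
  have h4 := fuse hτ h3
  rw [e1, e2] at h4
  omega

/-- **the fixed points of `H` on the adjoint module modulo the centre** -/
theorem exists_fix (hM : MaxAlt H 6 φ) (hψ : Lift φ ψ) (h2 : (2 : F) = 0) {a b : ↥(alternatingGroup (Fin 6))}
    (ha : a ^ 3 = 1) (hb : b ^ 3 = 1) (ha1 : a ≠ 1) (hb1 : b ≠ 1) (hI : Ineq F a b z5) (hl : Low F a b) :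
    Nat.card F % 3 = 1 ∧ Nat.card ↥H ≤ 720 ∧ ∃ v, v ∉ Zc F ∧ ∀ g : Gh F, ad F g ∈ H → L F g v - v ∈ Zc F := by
  obtain ⟨h3, h4⟩ := card_H hM hψ h2 hI hl
  exact ⟨h3, h4, exists_H hM hψ h2 (exists_WX hM hψ h2 ha hb z5_pow ha1 hb1 z5_ne hI)⟩

end

end Cfsg.Agent.R2.T1.N6D
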