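import Cfsg.Agent.R2.T1.N6D.Cert
import Cfsg.Agent.R2.T1.N6D.Two

/-!
# S5929, `n = 6`, `p = 2`: the eigenvalues of elements of order 5 (helper25)

* `two_mul_le` : `M` a module of `A₆` in characteristic 2, `τ² + τ = 1`: the kernel of `z² - τ z + 1`, `z` the 5-cycle,
  has at most half of the dimension of `M`.
-/

set_option autoImplicit false
set_option maxRecDepth 100000

namespace Cfsg.Agent.R2.T1.N6D

open Module Equiv Equiv.Perm
open Cfsg.Agent.R2.T1

universe u v

namespace NU
open Ct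

/-- `(0 1 2 3 4)` -/
def Z : ℕ := 39865
def Zi : ℕ := 43240
def T : ℕ := 40740
def G : ℕ := 21835
def I : ℕ := 44790

/-- the canonical representatives of the cosets of `t` -/
def cn (c : ℕ) : ℕ := bif Nat.blt (dg c 1) (dg c 4) then c else act T c

def R1' : List (ℕ × ℕ) := [(Z, 1), (Zi, 1), (I, 2)]

/-- `t g t` -/
def TG : ℕ := act T (act G T)

def R2' : List (ℕ × ℕ) := [(act G Z, 1), (act G Zi, 1), (G, 2), (act TG Z, 1), (act TG Zi, 1), (TG, 2)]

def C1 : List (ℕ × ℕ) := [(44115, 2), (43240, 1), (29600, 1), (28985, 3), (34885, 2), (38240, 1), (35605, 2),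
  (44505, 3), (43000, 2), (20795, 2), (22720, 1), (22095, 2), (30050, 2), (27040, 1), (22270, 2), (21855, 1),
  (36085, 2), (37665, 1), (35285, 2), (28595, 2), (30100, 1), (14350, 2), (28910, 2), (13415, 2), (15195, 1),
  (38035, 2), (33555, 1), (14715, 1), (12820, 2), (42925, 2), (44180, 3), (17895, 2), (37705, 2), (11860, 2),
  (14390, 1), (11345, 2), (29960, 2), (11200, 2), (20925, 1), (17645, 3), (6795, 2), (4835, 1), (7460, 2), (5885, 1)]

def C2 : List (ℕ × ℕ) := [(44790, 1), (34530, 2), (43680, 1), (14130, 1), (44155, 1), (5815, 1), (22705, 3), (7045, 3),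
  (30710, 1), (36110, 1), (44300, 2), (6860, 1), (7190, 3), (22395, 1), (11595, 2), (41625, 2), (37815, 2),
  (7395, 2), (14800, 2), (30250, 3), (42130, 1), (7210, 2), (4510, 3), (5735, 1), (4265, 3), (5495, 1)]

theorem check : Ct.chk cn R1' C1 R2' C2 I = true := by decide +kernel

/-- `t = (1 4)(2 3)` -/
def t : ↥(alternatingGroup (Fin 6)) := ⟨swap 1 4 * swap 2 3, mem_alternatingGroup.2 (by decide)⟩

/-- `g` -/
def g : ↥(alternatingGroup (Fin 6)) := ⟨swap 0 1 * swap 1 3 * swap 3 5 * swap 5 2, mem_alternatingGroup.2 (by decide)⟩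

theorem hZ : InA Z z5 := by
  unfold InA
  decide +kernel

theorem hZi : InA Zi z5⁻¹ := by
  unfold InA
  decide +kernel

theorem hT : InA T t := by
  unfold InA
  decide +kernel

theorem hG : InA G g := by
  unfold InA
  decide +kernel

theorem hI : InA I 1 := by
  unfold InA
  decide +kernel

theorem tt : t * t = 1 := by
  apply Subtype.ext
  decide +kernel

theorem tz : t * z5 * t = z5⁻¹ := by
  apply Subtype.ext
  decide +kernel

section
variable {F : Type u} [Field F] {M : Type v} [AddCommGroup M] [Module F M]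
  (ρ : Representation F ↥(alternatingGroup (Fin 6)) M)

theorem inv_l (x : ↥(alternatingGroup (Fin 6))) (y : M) : ρ x⁻¹ (ρ x y) = y := by
  rw [← Module.End.mul_apply, ← map_mul, inv_mul_cancel, map_one, Module.End.one_apply]

theorem inv_r (x : ↥(alternatingGroup (Fin 6))) (y : M) : ρ x (ρ x⁻¹ y) = y := by
  rw [← Module.End.mul_apply, ← map_mul, mul_inv_cancel, map_one, Module.End.one_apply]

theorem rel_iff {τ : F} {y : M} : y ∈ LinearMap.ker (Five.qd τ (ρ z5)) ↔ ρ z5 y + ρ z5⁻¹ y = τ • y := by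
  rw [Five.mem_ker_qd]
  constructor
  · intro h
    have h1 := congrArg (ρ z5⁻¹) h
    rw [inv_l, map_sub, map_smul, inv_l] at h1
    rw [h1, sub_add_cancel]
  · intro h
    have h1 := congrArg (ρ z5) h
    rw [map_add, inv_r, map_smul] at h1
    rw [← h1, add_sub_cancel_right]

theorem rel {τ : F} (h2 : (2 : F) = 0) {y : M} (hy : y ∈ LinearMap.ker (Five.qd τ (ρ z5))) :
    ρ z5 y + ρ z5⁻¹ y + τ • y = 0 := by
  rw [(rel_iff ρ).1 hy, ← two_smul F (τ • y), h2, zero_smul]

/-- the operator `g + t g t` -/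
noncomputable def X : Module.End F M := ρ g + ρ (t * g * t)

theorem hTG : InA TG (t * g * t) := by
  have h := hT.act (hG.act hT)
  exact h

theorem step {τ : F} (h2 : (2 : F) = 0) (hτ : τ * τ + τ - 1 = 0) {m : M}
    (hm : m ∈ LinearMap.ker (Five.qd τ (ρ z5))) (ht : ρ t m = m) (hx : X ρ m ∈ LinearMap.ker (Five.qd τ (ρ z5))) :
    m = 0 := by
  have hcn : ∀ c, U ρ (dec (cn c)) m = U ρ (dec c) m := by
    intro c
    unfold cn
    cases Nat.blt (dg c 1) (dg c 4)
    · rw [cond_false, U_act ρ hT, Module.End.mul_apply, ht]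
    · rw [cond_true]
  have e1 : opR ρ τ R1' m = 0 := by
    unfold opR R1'
    simp only [List.map_cons, List.map_nil, List.sum_cons, List.sum_nil]
    rw [U_InA ρ hZ, U_InA ρ hZi, U_InA ρ hI, e4_1, e4_2, one_smul, one_smul, map_one, Module.End.one_apply, add_zero,
      ← add_assoc]
    exact rel ρ h2 hm
  have e2 : opR ρ τ R2' m = 0 := by
    unfold opR R2'
    simp only [List.map_cons, List.map_nil, List.sum_cons, List.sum_nil]
    rw [U_InA ρ (hG.act hZ), U_InA ρ (hG.act hZi), U_InA ρ hG, U_InA ρ (hTG.act hZ), U_InA ρ (hTG.act hZi), U_InA ρ hTG,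
      e4_1, e4_2]
    have h3 := rel ρ h2 hx
    unfold X at h3
    simp only [LinearMap.add_apply, map_add, smul_add] at h3
    rw [map_mul ρ z5 g, map_mul ρ z5⁻¹ g, map_mul ρ z5 (t * g * t), map_mul ρ z5⁻¹ (t * g * t)]
    simp only [Module.End.mul_apply, one_smul, add_zero]
    rw [← h3]
    abel
  have h3 := vec_zero ρ h2 hτ hcn (R1 := R1') (R2 := R2') (by
    intro e he
    simp only [R1', List.mem_cons, List.not_mem_nil, or_false] at he
    rcases he with rfl | rfl | rfl
    · exact ⟨by norm_num, _, hZ⟩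
    · exact ⟨by norm_num, _, hZi⟩
    · exact ⟨by norm_num, _, hI⟩) (by
    intro e he
    simp only [R2', List.mem_cons, List.not_mem_nil, or_false] at he
    rcases he with rfl | rfl | rfl | rfl | rfl | rfl
    · exact ⟨by norm_num, _, hG.act hZ⟩
    · exact ⟨by norm_num, _, hG.act hZi⟩
    · exact ⟨by norm_num, _, hG⟩
    · exact ⟨by norm_num, _, hTG.act hZ⟩
    · exact ⟨by norm_num, _, hTG.act hZi⟩
    · exact ⟨by norm_num, _, hTG⟩) e1 e2 check
  rw [U_InA ρ hI, map_one, Module.End.one_apply] at h3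
  exact h3

theorem t_mem {τ : F} {m : M} (hm : m ∈ LinearMap.ker (Five.qd τ (ρ z5))) :
    ρ t m ∈ LinearMap.ker (Five.qd τ (ρ z5)) := by
  rw [rel_iff] at hm ⊢
  have e1 : z5 * t = t * z5⁻¹ := by
    rw [← tz, ← mul_assoc, ← mul_assoc, tt, one_mul]
  have e2 : z5⁻¹ * t = t * z5 := by
    rw [← tz, mul_assoc, tt, mul_one]
  have e3 : ρ z5 (ρ t m) = ρ t (ρ z5⁻¹ m) := by
    rw [← Module.End.mul_apply, ← map_mul, e1, map_mul, Module.End.mul_apply]
  have e4 : ρ z5⁻¹ (ρ t m) = ρ t (ρ z5 m) := by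
    rw [← Module.End.mul_apply, ← map_mul, e2, map_mul, Module.End.mul_apply]
  rw [e3, e4, ← map_add, add_comm, hm, map_smul]

theorem X_t (m : M) : X ρ (ρ t m) = ρ t (X ρ m) := by
  unfold X
  rw [LinearMap.add_apply, LinearMap.add_apply, map_add, ← Module.End.mul_apply, ← Module.End.mul_apply,
    ← Module.End.mul_apply, ← Module.End.mul_apply, ← map_mul, ← map_mul, ← map_mul, ← map_mul]
  have e1 : t * g * t * t = t * g := by rw [mul_assoc (t * g), tt, mul_one]
  have e2 : t * (t * g * t) = g * t := by rw [← mul_assoc, ← mul_assoc, tt, one_mul]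
  rw [e1, e2, add_comm]

theorem inj {τ : F} (h2 : (2 : F) = 0) (hτ : τ * τ + τ - 1 = 0) {m : M}
    (hm : m ∈ LinearMap.ker (Five.qd τ (ρ z5))) (hx : X ρ m ∈ LinearMap.ker (Five.qd τ (ρ z5))) : m = 0 := by
  have h1 : m + ρ t m = 0 := by
    refine step ρ h2 hτ (m := m + ρ t m) (add_mem hm (t_mem ρ hm)) ?_ ?_
    · rw [map_add, ← Module.End.mul_apply, ← map_mul, tt, map_one, Module.End.one_apply, add_comm]
    · rw [map_add, X_t]
      exact add_mem hx (t_mem ρ hx)
  refine step ρ h2 hτ hm ?_ hx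
  have h3 : m + m = 0 := by rw [← two_smul F m, h2, zero_smul]
  exact add_left_cancel (h1.trans h3.symm)

end

end NU

/-- **the kernel of `z² - τ z + 1` has at most half of the dimension** -/
theorem two_mul_le {F : Type u} [Field F] {M : Type v} [AddCommGroup M] [Module F M] [FiniteDimensional F M]
    (h2 : (2 : F) = 0) {τ : F} (hτ : τ * τ + τ - 1 = 0) (ρ : Representation F ↥(alternatingGroup (Fin 6)) M) :
    2 * finrank F ↥(LinearMap.ker (Five.qd τ (ρ z5))) ≤ finrank F M := by
  set W := LinearMap.ker (Five.qd τ (ρ z5)) with hW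
  let f : ↥W →ₗ[F] M ⧸ W := (W.mkQ.comp (NU.X ρ)).comp W.subtype
  have hf : Function.Injective f := by
    rw [← LinearMap.ker_eq_bot, LinearMap.ker_eq_bot']
    intro m hm
    have h1 : NU.X ρ (m : M) ∈ W := (Submodule.Quotient.mk_eq_zero W).1 hm
    exact Subtype.ext (NU.inj ρ h2 hτ m.2 h1)
  have h1 := LinearMap.finrank_le_finrank_of_injective hf
  have h3 := Submodule.finrank_quotient_add_finrank W
  omega

end Cfsg.Agent.R2.T1.N6D
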