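import Cfsg.Agent.R2.T1.N6D.T1

/-!
# S5929, `n = 6`, `p = 2`: parities and the decomposition for the elements of order 5 (helper25)
-/

set_option autoImplicit false
set_option maxRecDepth 100000

namespace Cfsg.Agent.R2.T1.N6D.I2

open Module Equiv Equiv.Perm
open Cfsg.Agent.R2.T1
open Cfsg.Agent.H952.F4 (ev)

universe u v

section
variable {F : Type u} [Field F] {M : Type v} [AddCommGroup M] [Module F M]

/-- real elements of order 3 -/
theorem even_real [FiniteDimensional F M] (h2 : (2 : F) = 0) {T S : Module.End F M} (hT : ∀ m, T (T (T m)) = m)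
    (hS : ∀ m, S (T m) = T (T (S m))) (hSS : ∀ m, S (S m) = m) : 2 ∣ finrank F M + ev T 1 := by
  have h0 : finrank F M = finrank F ↥(Fx T) + finrank F ↥(Kp T) := by
    have h := split h2 hT ⊤ (fun _ _ => trivial)
    rwa [finrank_top, top_inf_eq, top_inf_eq] at h
  have hK : ∀ m ∈ Kp T, T m ∈ Kp T := by
    intro m hm
    rw [mem_Kp] at hm ⊢
    rw [← map_add, ← map_add, hm, map_zero]
  have h1 := dbl hT hS (Kp T) hK (by
    intro m hm h3
    rw [mem_Kp, h3, h3, two0 h2, zero_add] at hm
    exact hm)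
  have h3 := half h2 (T := S) (Kp T) (by
    intro m hm
    rw [mem_Kp] at hm ⊢
    have h4 := congrArg S hm
    rw [map_add, map_add, map_zero, hS, hS, hS, hT] at h4
    rw [← h4]
    abel) (fun m _ => hSS m)
  have e : ev T 1 = finrank F ↥(Fx T) := rfl
  rw [e]
  omega

/-- **the decomposition for an operator of order 5** -/
theorem sum_five [FiniteDimensional F M] (h2 : (2 : F) = 0) {τ : F} (hτ : τ * τ + τ - 1 = 0) {T : Module.End F M}
    (hT : ∀ m, T (T (T (T (T m)))) = m) :
    ev T 1 + finrank F ↥(LinearMap.ker (Five.qd τ T)) + finrank F ↥(LinearMap.ker (Five.qd (-1 - τ) T)) = finrank F M := by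
  set N : Module.End F M := 1 + T + T * T + T * (T * T) + T * (T * (T * T)) with hN
  have hNa : ∀ m, N m = m + T m + T (T m) + T (T (T m)) + T (T (T (T m))) := fun m => rfl
  have hqd : ∀ (t : F) (m : M), Five.qd t T m = T (T m) - t • T m + m := fun t m => rfl
  have h1 := finrank_ker_res ⊤ N
  rw [finrank_top, top_inf_eq] at h1
  have e1 : (⊤ : Submodule F M).map N = Fx T := by
    ext m
    constructor
    · rintro ⟨x, -, rfl⟩
      rw [mem_Fx, hNa]
      simp only [map_add, hT]
      abel
    · intro hm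
      rw [mem_Fx] at hm
      refine ⟨m, trivial, ?_⟩
      rw [hNa, hm, hm, hm, hm, two0 h2, zero_add, two0 h2, zero_add]
  have key : ∀ m, N m = Five.qd (-1 - τ) T (Five.qd τ T m) := by
    intro m
    rw [hNa, hqd, hqd]
    simp only [map_add, map_sub, map_smul]
    linear_combination (norm := module) hτ • (T (T m))
  have key' : ∀ m, N m = Five.qd τ T (Five.qd (-1 - τ) T m) := by
    intro m
    rw [hNa, hqd, hqd]
    simp only [map_add, map_sub, map_smul]
    linear_combination (norm := module) hτ • (T (T m))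
  have h3 := finrank_ker_res (LinearMap.ker N) (Five.qd τ T)
  have e2 : LinearMap.ker N ⊓ LinearMap.ker (Five.qd τ T) = LinearMap.ker (Five.qd τ T) := by
    refine inf_eq_right.2 fun m hm => ?_
    rw [LinearMap.mem_ker] at hm ⊢
    rw [key, hm, map_zero]
  have e3 : (LinearMap.ker N).map (Five.qd τ T) = LinearMap.ker (Five.qd (-1 - τ) T) := by
    ext m
    constructor
    · rintro ⟨x, hx, rfl⟩
      rw [LinearMap.mem_ker, ← key]
      exact hx
    · intro hm
      refine ⟨T (T (T (T m))), ?_, ?_⟩
      · have h4 : N (T (T (T (T m)))) = N m := by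
          rw [hNa, hNa]
          simp only [hT]
          abel
        show N (T (T (T (T m)))) = 0
        rw [h4, key', LinearMap.mem_ker.1 hm, map_zero]
      · have h4 : T (T m) = (-1 - τ) • T m - m := Five.mem_ker_qd.1 hm
        have h5 : Five.qd τ T m = T m := by
          rw [hqd, h4]
          linear_combination (norm := module) (-(1 + τ) * h2) • T m
        have h6 : Five.qd τ T (T (T (T (T m)))) = T (T (T (T (Five.qd τ T m)))) := by
          rw [hqd, hqd]
          simp only [map_add, map_sub, map_smul]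
        rw [h6, h5, hT]
  rw [e1] at h1
  rw [e2, e3] at h3
  have e : ev T 1 = finrank F ↥(Fx T) := rfl
  rw [e]
  omega

variable (ρ : Representation F ↥(alternatingGroup (Fin 6)) M)

theorem even_A [FiniteDimensional F M] (h2 : (2 : F) = 0) : 2 ∣ finrank F M + ev (ρ pa) 1 :=
  even_real h2 (S := ρ (py * py)) (b3 ρ pa3) (sb ρ pys_a) fun m => by rw [← rm, py4, r1]

theorem even_B [FiniteDimensional F M] (h2 : (2 : F) = 0) : 2 ∣ finrank F M + ev (ρ (pa * pa')) 1 :=
  even_real h2 (S := ρ (py * py)) (b3 ρ pb3) (sb ρ pbs) fun m => by rw [← rm, py4, r1]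

theorem sum5 [FiniteDimensional F M] (h2 : (2 : F) = 0) {τ : F} (hτ : τ * τ + τ - 1 = 0) :
    ev (ρ z5) 1 + finrank F ↥(LinearMap.ker (Five.qd τ (ρ z5))) + finrank F ↥(LinearMap.ker (Five.qd (-1 - τ) (ρ z5))) =
      finrank F M := by
  refine sum_five h2 hτ fun m => ?_
  have h := z5_pow
  rw [show (5 : ℕ) = 4 + 1 from rfl, pow_succ, pow_succ, pow_succ, pow_succ, pow_one] at h
  rw [← rm, ← rm, ← rm, ← rm, h, r1]

end

end Cfsg.Agent.R2.T1.N6D.I2
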