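import Cfsg.Agent.R2.T1.N6D.NoU
import Cfsg.Agent.H952.F4.Gen

/-!
# S5929, `n = 6`, `p = 2`: INEQ, part (T2) (certificate by helper25, proof by helper9)

* `surj` : a module of `A₆` in characteristic 2 without invariant functionals: the fixed points of the 5-cycle are of the
  form `e_c g_A Q₁ m₁ + e_c g_B Q₂ m₂`.
-/

set_option autoImplicit false
set_option maxRecDepth 100000

namespace Cfsg.Agent.R2.T1.N6D.I2

open Module Equiv Equiv.Perm
open Cfsg.Agent.R2.T1
open Ct

universe u v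

/-- `(0 1 2)` -/
def pa : ↥(alternatingGroup (Fin 6)) := ⟨swap 0 1 * swap 1 2, mem_alternatingGroup.2 (by decide)⟩
/-- `(3 4 5)` -/
def pa' : ↥(alternatingGroup (Fin 6)) := ⟨swap 3 4 * swap 4 5, mem_alternatingGroup.2 (by decide)⟩
/-- `(0 3)(1 4 2 5)` -/
def py : ↥(alternatingGroup (Fin 6)) := ⟨swap 0 3 * (swap 1 4 * swap 4 2 * swap 2 5), mem_alternatingGroup.2 (by decide)⟩
/-- `(3 5 4)` -/
def x2 : ↥(alternatingGroup (Fin 6)) := ⟨swap 3 5 * swap 5 4, mem_alternatingGroup.2 (by decide)⟩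
/-- `(1 2 4 5 3)` -/
def gA : ↥(alternatingGroup (Fin 6)) := ⟨swap 1 2 * swap 2 4 * swap 4 5 * swap 5 3, mem_alternatingGroup.2 (by decide)⟩
/-- `(1 5 2)` -/
def gB : ↥(alternatingGroup (Fin 6)) := ⟨swap 1 5 * swap 5 2, mem_alternatingGroup.2 (by decide)⟩

def cI : ℕ := 44790
def cA : ℕ := 44725
def cA' : ℕ := 30750
def cY : ℕ := 10575
def cX : ℕ := 36150
def cZ : ℕ := 39865
def cGA : ℕ := 30180
def cGB : ℕ := 21450

theorem hcI : InA cI 1 := by unfold InA; decide +kernel
theorem hcA : InA cA pa := by unfold InA; decide +kernel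
theorem hcA' : InA cA' pa' := by unfold InA; decide +kernel
theorem hcY : InA cY py := by unfold InA; decide +kernel
theorem hcX : InA cX x2 := by unfold InA; decide +kernel
theorem hcZ : InA cZ z5 := by unfold InA; decide +kernel
theorem hcGA : InA cGA gA := by unfold InA; decide +kernel
theorem hcGB : InA cGB gB := by unfold InA; decide +kernel

/-- products of lists -/
def ml (S P : List ℕ) : List ℕ := S.flatMap fun s => P.map fun p => act p s

/-- the generators -/
def gn (b : Bool) : ℕ := bif b then cX else cZ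

/-- words -/
def wd : List Bool → ℕ
  | [] => cI
  | b :: l => act (gn b) (wd l)

theorem gn_InA (b : Bool) : InA (gn b) (bif b then x2 else z5) := by
  cases b
  · exact hcZ
  · exact hcX

theorem wd_InA (l : List Bool) : ∃ g, InA (wd l) g := by
  induction l with
  | nil => exact ⟨1, hcI⟩
  | cons b l ih =>
    obtain ⟨g, hg⟩ := ih
    exact ⟨_, (gn_InA b).act hg⟩

/-- the codes of the powers of the 5-cycle -/
def PC : List ℕ := [cI, cZ, act cZ cZ, act cZ (act cZ cZ), act cZ (act cZ (act cZ cZ))]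

/-- the canonical representatives of the cosets of the 5-cycle -/
def cn (s : ℕ) : ℕ := act s (PC.getD ((5 - (bif Nat.beq (dg s 0) 5 then dg s 1 else dg s 0)) % 5) cI)

/-- the codes of `Q₁` -/
def QA : List ℕ := ml (ml [cI, act cY cY] [cI, cA, act cA cA]) [cA', act cA' cA']

/-- the codes of `Q₂` -/
def QB : List ℕ := ml (ml [cI, act cY cY] [cI, act cA' cA, act (act cA' cA) (act cA' cA)]) [cA', act cA' cA']

def RA : List ℕ := [wd [true, false, false, false, true, true, false, true, true],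
  wd [true, true, false, false, true, false, true, true, false], wd [false, true, false, false, true, false], wd [],
  wd [false, true, true, false, false, false, false], wd [true, false, false, true, true, false],
  wd [false, true, false, false, false], wd [false, false, false], wd [true, false, false, true, false]]

def RB : List ℕ := [wd [], wd [true, false, false, true, false, true], wd [false, false, true, false, false, false],
  wd [false, false, false, true, true, false, true], wd [true, false, false, false, true, true, false, true, true],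
  wd [false, false, false, false, true, false, true, false, false],
  wd [true, false, false, true, false, true, true, false, true], wd [false, true, false, false, false, true, true],
  wd [false, false, true, true, false, true, true]]

/-- all terms -/
def LL : List ℕ := [cX, cI] ++ (ml (ml [cGA] QA) RA ++ ml (ml [cGB] QB) RB)

def LC : List (ℕ × ℕ) := LL.map fun s => (cn s, 1)

theorem check : (bnd LC && Nat.beq (toX LC) 0) = true := by decide +kernel

section
variable {F : Type u} [Field F] {M : Type v} [AddCommGroup M] [Module F M]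
  (ρ : Representation F ↥(alternatingGroup (Fin 6)) M)

/-- left multiplication -/
theorem U_actL {q : ℕ} {g : ↥(alternatingGroup (Fin 6))} (hq : InA q g) (s : ℕ) :
    U ρ (dec (act s q)) = ρ g * U ρ (dec s) := by
  rw [dec_act]
  by_cases hs : ∃ σ : ↥(alternatingGroup (Fin 6)), ⇑(σ : Perm (Fin 6)) = dec s
  · obtain ⟨σ, hσ⟩ := hs
    have h1 : dec q ∘ dec s = ⇑((g * σ : ↥(alternatingGroup (Fin 6))) : Perm (Fin 6)) := by
      rw [← hσ, ← hq]
      rfl
    rw [h1, U_coe, ← hσ, U_coe, map_mul]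
  · have h1 : ¬ ∃ σ : ↥(alternatingGroup (Fin 6)), ⇑(σ : Perm (Fin 6)) = dec q ∘ dec s := by
      rintro ⟨σ, hσ⟩
      apply hs
      refine ⟨g⁻¹ * σ, ?_⟩
      funext i
      show ((g⁻¹ : ↥(alternatingGroup (Fin 6))) : Perm (Fin 6)) ((σ : Perm (Fin 6)) i) = dec s i
      rw [hσ, Function.comp_apply, ← hq, InvMemClass.coe_inv]
      exact Equiv.symm_apply_apply _ _
    unfold U
    rw [dif_neg h1, dif_neg hs, mul_zero]

/-- sums over lists of codes -/
noncomputable def SU (S : List ℕ) : Module.End F M := (S.map fun c => U ρ (dec c)).sum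

theorem SU_append (S P : List ℕ) : SU ρ (S ++ P) = SU ρ S + SU ρ P := by
  unfold SU
  rw [List.map_append, List.sum_append]

theorem SU_ml (S P : List ℕ) (hP : ∀ p ∈ P, ∃ g, InA p g) : SU ρ (ml S P) = SU ρ S * SU ρ P := by
  induction S with
  | nil =>
    show (0 : Module.End F M) = 0 * _
    rw [zero_mul]
  | cons s S ih =>
    have h1 : ml (s :: S) P = (P.map fun p => act p s) ++ ml S P := rfl
    rw [h1, SU_append, ih]
    have h2 : SU ρ (P.map fun p => act p s) = U ρ (dec s) * SU ρ P := by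
      unfold SU
      rw [List.map_map, ← List.sum_map_mul_left]
      congr 1
      refine List.map_congr_left fun p hp => ?_
      obtain ⟨g, hg⟩ := hP p hp
      rw [Function.comp_apply, U_act ρ hg, U_InA ρ hg]
    have h3 : SU ρ (s :: S) = U ρ (dec s) + SU ρ S := by
      unfold SU
      rw [List.map_cons, List.sum_cons]
    rw [h2, h3, add_mul]

theorem SU_single {c : ℕ} {g : ↥(alternatingGroup (Fin 6))} (hc : InA c g) : SU ρ [c] = ρ g := by
  unfold SU
  rw [List.map_cons, List.map_nil, List.sum_cons, List.sum_nil, add_zero, U_InA ρ hc]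

theorem SU_pair {c d : ℕ} {g h : ↥(alternatingGroup (Fin 6))} (hc : InA c g) (hd : InA d h) : SU ρ [c, d] = ρ g + ρ h := by
  unfold SU
  rw [List.map_cons, List.map_cons, List.map_nil, List.sum_cons, List.sum_cons, List.sum_nil, add_zero, U_InA ρ hc,
    U_InA ρ hd]

theorem SU_three {c d e : ℕ} {g h k : ↥(alternatingGroup (Fin 6))} (hc : InA c g) (hd : InA d h) (he : InA e k) :
    SU ρ [c, d, e] = ρ g + ρ h + ρ k := by
  unfold SU
  rw [List.map_cons, List.map_cons, List.map_cons, List.map_nil, List.sum_cons, List.sum_cons, List.sum_cons,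
    List.sum_nil, add_zero, U_InA ρ hc, U_InA ρ hd, U_InA ρ he, add_assoc]

/-- the sum over the powers of the 5-cycle -/
noncomputable def Ec : Module.End F M := ∑ k ∈ Finset.range 5, ρ (z5 ^ k)

theorem z5_five : z5 ^ 5 = 1 := z5_pow

theorem Ec_mul (k : ℕ) : Ec ρ * ρ (z5 ^ k) = Ec ρ := by
  have h1 : Ec ρ * ρ z5 = Ec ρ := by
    unfold Ec
    rw [Finset.sum_mul]
    have e1 : ∀ i ∈ Finset.range 5, ρ (z5 ^ i) * ρ z5 = ρ (z5 ^ (i + 1)) := fun i _ => by rw [← map_mul, ← pow_succ]
    rw [Finset.sum_congr rfl e1, Finset.sum_range_succ, z5_five, Finset.sum_range_succ' (fun i => ρ (z5 ^ i)), pow_zero]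
  induction k with
  | zero => rw [pow_zero, map_one, mul_one]
  | succ k ih => rw [pow_succ, map_mul, ← mul_assoc, ih, h1]

theorem mul_Ec : ρ z5 * Ec ρ = Ec ρ := by
  unfold Ec
  rw [Finset.mul_sum]
  have e1 : ∀ i ∈ Finset.range 5, ρ z5 * ρ (z5 ^ i) = ρ (z5 ^ (i + 1)) := fun i _ => by rw [← map_mul, ← pow_succ']
  rw [Finset.sum_congr rfl e1, Finset.sum_range_succ, z5_five, Finset.sum_range_succ' (fun i => ρ (z5 ^ i)), pow_zero]

theorem Ec_apply (k : ℕ) (m : M) : Ec ρ (ρ (z5 ^ k) m) = Ec ρ m := by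
  rw [← Module.End.mul_apply, Ec_mul]

theorem Ec_of_fixed (h2 : (2 : F) = 0) {m : M} (hm : ρ z5 m = m) : Ec ρ m = m := by
  have hp : ∀ k : ℕ, ρ (z5 ^ k) m = m := by
    intro k
    induction k with
    | zero => rw [pow_zero, map_one]; rfl
    | succ k ih => rw [pow_succ, map_mul, Module.End.mul_apply, hm, ih]
  have h3 : m + m = 0 := by rw [← two_smul F m, h2, zero_smul]
  unfold Ec
  rw [LinearMap.sum_apply]
  simp only [hp]
  rw [Finset.sum_const, Finset.card_range]
  have : (5 : ℕ) • m = (m + m) + (m + m) + m := by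
    rw [show (5 : ℕ) = 1 + 1 + 1 + 1 + 1 from rfl]
    simp only [add_smul, one_smul]
    abel
  rw [this, h3, zero_add, zero_add]

theorem PC_InA (j : ℕ) : ∃ i, InA (PC.getD j cI) (z5 ^ i) := by
  have e0 : InA cI (z5 ^ 0) := by rw [pow_zero]; exact hcI
  have e1 : InA cZ (z5 ^ 1) := by rw [pow_one]; exact hcZ
  have e2 : InA (act cZ cZ) (z5 ^ 2) := by rw [pow_two]; exact hcZ.act hcZ
  have e3 : InA (act cZ (act cZ cZ)) (z5 ^ 3) := by rw [pow_succ]; exact hcZ.act e2
  have e4 : InA (act cZ (act cZ (act cZ cZ))) (z5 ^ 4) := by rw [pow_succ]; exact hcZ.act e3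
  rcases j with _ | _ | _ | _ | _ | j
  · exact ⟨0, e0⟩
  · exact ⟨1, e1⟩
  · exact ⟨2, e2⟩
  · exact ⟨3, e3⟩
  · exact ⟨4, e4⟩
  · exact ⟨0, e0⟩

theorem w_cn (s : ℕ) (m : M) : Ec ρ (U ρ (dec (cn s)) m) = Ec ρ (U ρ (dec s) m) := by
  obtain ⟨i, hi⟩ := PC_InA ((5 - (bif Nat.beq (dg s 0) 5 then dg s 1 else dg s 0)) % 5)
  unfold cn
  rw [U_actL ρ hi, Module.End.mul_apply, Ec_apply]

/-- `e₁` -/
noncomputable def E1 : Module.End F M := (1 + ρ pa + ρ (pa * pa)) * (ρ pa' + ρ (pa' * pa'))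
/-- `e₂` -/
noncomputable def E2 : Module.End F M :=
  (1 + ρ (pa * pa') + ρ (pa * pa' * (pa * pa'))) * (ρ pa' + ρ (pa' * pa'))
noncomputable def Q1 : Module.End F M := (1 + ρ (py * py)) * E1 ρ
noncomputable def Q2 : Module.End F M := (1 + ρ (py * py)) * E2 ρ

theorem SU_QA : SU ρ QA = Q1 ρ := by
  unfold QA Q1 E1
  rw [SU_ml ρ, SU_ml ρ, SU_pair ρ hcI (hcY.act hcY), SU_three ρ hcI hcA (hcA.act hcA), SU_pair ρ hcA' (hcA'.act hcA'),
    map_one, mul_assoc]
  · intro p hp
    simp only [List.mem_cons, List.not_mem_nil, or_false] at hp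
    rcases hp with rfl | rfl | rfl
    · exact ⟨_, hcI⟩
    · exact ⟨_, hcA⟩
    · exact ⟨_, hcA.act hcA⟩
  · intro p hp
    simp only [List.mem_cons, List.not_mem_nil, or_false] at hp
    rcases hp with rfl | rfl
    · exact ⟨_, hcA'⟩
    · exact ⟨_, hcA'.act hcA'⟩

theorem SU_QB : SU ρ QB = Q2 ρ := by
  unfold QB Q2 E2
  have hb := hcA'.act hcA
  rw [SU_ml ρ, SU_ml ρ, SU_pair ρ hcI (hcY.act hcY), SU_three ρ hcI hb (hb.act hb), SU_pair ρ hcA' (hcA'.act hcA'),
    map_one, mul_assoc]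
  · intro p hp
    simp only [List.mem_cons, List.not_mem_nil, or_false] at hp
    rcases hp with rfl | rfl | rfl
    · exact ⟨_, hcI⟩
    · exact ⟨_, hb⟩
    · exact ⟨_, hb.act hb⟩
  · intro p hp
    simp only [List.mem_cons, List.not_mem_nil, or_false] at hp
    rcases hp with rfl | rfl
    · exact ⟨_, hcA'⟩
    · exact ⟨_, hcA'.act hcA'⟩

theorem QA_InA : ∀ p ∈ QA, ∃ g, InA p g := by
  have h := hcI
  have h0 := hcA
  have h1 := hcA'
  have h3 := hcY
  intro p hp
  unfold QA ml at hp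
  simp only [List.mem_flatMap, List.mem_map, List.mem_cons, List.not_mem_nil, or_false] at hp
  obtain ⟨q, ⟨r, hr, s, hs, rfl⟩, t, ht, rfl⟩ := hp
  have a1 : ∃ g, InA r g := by
    rcases hr with rfl | rfl
    · exact ⟨_, h⟩
    · exact ⟨_, h3.act h3⟩
  have a2 : ∃ g, InA s g := by
    rcases hs with rfl | rfl | rfl
    · exact ⟨_, h⟩
    · exact ⟨_, h0⟩
    · exact ⟨_, h0.act h0⟩
  have a3 : ∃ g, InA t g := by
    rcases ht with rfl | rfl
    · exact ⟨_, h1⟩
    · exact ⟨_, h1.act h1⟩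
  obtain ⟨g1, a1⟩ := a1
  obtain ⟨g2, a2⟩ := a2
  obtain ⟨g3, a3⟩ := a3
  exact ⟨_, a3.act (a2.act a1)⟩

theorem QB_InA : ∀ p ∈ QB, ∃ g, InA p g := by
  have h := hcI
  have h0 := hcA'.act hcA
  have h1 := hcA'
  have h3 := hcY
  intro p hp
  unfold QB ml at hp
  simp only [List.mem_flatMap, List.mem_map, List.mem_cons, List.not_mem_nil, or_false] at hp
  obtain ⟨q, ⟨r, hr, s, hs, rfl⟩, t, ht, rfl⟩ := hp
  have a1 : ∃ g, InA r g := by
    rcases hr with rfl | rfl
    · exact ⟨_, h⟩
    · exact ⟨_, h3.act h3⟩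
  have a2 : ∃ g, InA s g := by
    rcases hs with rfl | rfl | rfl
    · exact ⟨_, h⟩
    · exact ⟨_, h0⟩
    · exact ⟨_, h0.act h0⟩
  have a3 : ∃ g, InA t g := by
    rcases ht with rfl | rfl
    · exact ⟨_, h1⟩
    · exact ⟨_, h1.act h1⟩
  obtain ⟨g1, a1⟩ := a1
  obtain ⟨g2, a2⟩ := a2
  obtain ⟨g3, a3⟩ := a3
  exact ⟨_, a3.act (a2.act a1)⟩

theorem RA_InA : ∀ p ∈ RA, ∃ g, InA p g := by
  intro p hp
  simp only [RA, List.mem_cons, List.not_mem_nil, or_false] at hp
  rcases hp with rfl | rfl | rfl | rfl | rfl | rfl | rfl | rfl | rfl <;> exact wd_InA _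

theorem RB_InA : ∀ p ∈ RB, ∃ g, InA p g := by
  intro p hp
  simp only [RB, List.mem_cons, List.not_mem_nil, or_false] at hp
  rcases hp with rfl | rfl | rfl | rfl | rfl | rfl | rfl | rfl | rfl <;> exact wd_InA _

theorem SU_LL : SU ρ LL = ρ x2 + 1 + (ρ gA * Q1 ρ * SU ρ RA + ρ gB * Q2 ρ * SU ρ RB) := by
  unfold LL
  rw [SU_append, SU_append, SU_pair ρ hcX hcI, map_one, SU_ml ρ _ _ RA_InA, SU_ml ρ _ _ RB_InA, SU_ml ρ _ _ QA_InA,
    SU_ml ρ _ _ QB_InA, SU_single ρ hcGA, SU_single ρ hcGB, SU_QA, SU_QB]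

theorem Ec_SU (h2 : (2 : F) = 0) (m : M) : Ec ρ (SU ρ LL m) = 0 := by
  have hc := check
  rw [Bool.and_eq_true, Nat.beq_eq] at hc
  have h1 := sound h2 (0 : F) (fun s => Ec ρ (U ρ (dec s) m)) LC hc.1
  rw [hc.2] at h1
  have h3 : Ct.Phi (0 : F) (fun s => Ec ρ (U ρ (dec s) m)) 0 = 0 := by
    unfold Ct.Phi
    simp
  rw [h3] at h1
  rw [← h1]
  unfold LC SU
  rw [List.map_map]
  have key : ∀ L : List ℕ, Ec ρ ((L.map fun c => U ρ (dec c)).sum m) =
      (L.map ((fun e : ℕ × ℕ => e4 (0 : F) e.2 • (fun s => Ec ρ (U ρ (dec s) m)) e.1) ∘ fun s => (cn s, 1))).sum := by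
    intro L
    induction L with
    | nil =>
      show Ec ρ ((0 : Module.End F M) m) = 0
      rw [LinearMap.zero_apply, map_zero]
    | cons c L ih =>
      rw [List.map_cons, List.sum_cons, LinearMap.add_apply, map_add, ih, List.map_cons, List.sum_cons]
      congr 1
      show _ = e4 (0 : F) 1 • Ec ρ (U ρ (dec (cn c)) m)
      rw [e4_1, one_smul, w_cn]
  exact key LL

theorem idt (h2 : (2 : F) = 0) (m : M) : Ec ρ (ρ x2 m - m) =
    Ec ρ (ρ gA (Q1 ρ (SU ρ RA m))) + Ec ρ (ρ gB (Q2 ρ (SU ρ RB m))) := by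
  have h1 := Ec_SU ρ h2 m
  rw [SU_LL] at h1
  simp only [LinearMap.add_apply, Module.End.mul_apply, Module.End.one_apply, map_add] at h1
  have two : ∀ y : M, y + y = 0 := fun y => by rw [← two_smul F y, h2, zero_smul]
  have neg : ∀ y : M, -y = y := fun y => by
    rw [neg_eq_iff_add_eq_zero]
    exact two y
  rw [sub_eq_add_neg, neg, map_add]
  have h3 := eq_neg_of_add_eq_zero_left h1
  rw [neg] at h3
  exact h3

/-- the subgroup generated by the 5-cycle and `(3 5 4)` -/
theorem gen {H : Subgroup ↥(alternatingGroup (Fin 6))} (h1 : z5 ∈ H) (h2 : x2 ∈ H) (g : ↥(alternatingGroup (Fin 6))) :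
    g ∈ H := by
  have hw : ∀ l, ∃ g ∈ H, InA (wd l) g := by
    intro l
    induction l with
    | nil => exact ⟨1, one_mem H, hcI⟩
    | cons b l ih =>
      obtain ⟨g, hg, hg'⟩ := ih
      refine ⟨_, mul_mem hg ?_, (gn_InA b).act hg'⟩
      cases b
      · exact h1
      · exact h2
  have h3 := Cfsg.Agent.H952.F4.Gen.mem_of_star (n := 4) (H.map (alternatingGroup (Fin 6)).subtype) (by
    rintro _ ⟨x, -, rfl⟩
    exact x.2) (by
    have key : ∀ (l : List Bool) (τ : Perm (Fin 6)), (∀ i, dec (wd l) i = τ i) →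
        τ ∈ H.map (alternatingGroup (Fin 6)).subtype := by
      intro l τ hτ
      obtain ⟨g, hg, hg'⟩ := hw l
      refine ⟨g, hg, ?_⟩
      refine Equiv.ext fun i => ?_
      rw [← hτ]
      exact congrFun hg' i
    intro k hk
    fin_cases k
    · exact absurd rfl hk
    · exact key [] _ (by decide +kernel)
    · exact key [false, true, false, false, true, true, false, false, true, false] _ (by decide +kernel)
    · exact key [true, false, true, true, false, false, false, true] _ (by decide +kernel)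
    · exact key [true, true, false, true, true, false, false, false] _ (by decide +kernel)
    · exact key [false, false, false, true, false, false] _ (by decide +kernel)) (σ := g) g.2
  obtain ⟨x, hx, hxg⟩ := h3
  have : x = g := Subtype.ext hxg
  rw [← this]
  exact hx

/-- **(T2)** -/
theorem surj (h2 : (2 : F) = 0) (hco : ∀ f : Module.Dual F M, (∀ g m, f (ρ g m) = f m) → f = 0) {s : M}
    (hs : ρ z5 s = s) : ∃ m1 m2, s = Ec ρ (ρ gA (Q1 ρ m1)) + Ec ρ (ρ gB (Q2 ρ m2)) := by
  set S : Submodule F M := LinearMap.range (Ec ρ * ρ gA * Q1 ρ) ⊔ LinearMap.range (Ec ρ * ρ gB * Q2 ρ) with hS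
  set N : Submodule F M := S.comap (Ec ρ) with hN
  let K : Subgroup ↥(alternatingGroup (Fin 6)) :=
    { carrier := {x | ∀ m, ρ x m - m ∈ N}
      one_mem' := by
        intro m
        rw [map_one, Module.End.one_apply, sub_self]
        exact zero_mem N
      mul_mem' := by
        intro x y hx hy m
        have h3 := add_mem (hx (ρ y m)) (hy m)
        rwa [sub_add_sub_cancel, ← Module.End.mul_apply, ← map_mul] at h3
      inv_mem' := by
        intro x hx m
        have h3 := neg_mem (hx (ρ x⁻¹ m))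
        rwa [neg_sub, ← Module.End.mul_apply, ← map_mul, mul_inv_cancel, map_one, Module.End.one_apply] at h3 }
  have k1 : z5 ∈ K := by
    intro m
    rw [hN, Submodule.mem_comap, map_sub]
    have h3 := Ec_apply ρ 1 m
    rw [pow_one] at h3
    rw [h3, sub_self]
    exact zero_mem S
  have k2 : x2 ∈ K := by
    intro m
    rw [hN, Submodule.mem_comap, idt ρ h2]
    exact add_mem (Submodule.mem_sup_left ⟨_, rfl⟩) (Submodule.mem_sup_right ⟨_, rfl⟩)
  have hK : ∀ x m, ρ x m - m ∈ N := fun x => gen k1 k2 x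
  have htop : N = ⊤ := by
    by_contra hne
    obtain ⟨f, hf, hf'⟩ := Submodule.exists_le_ker_of_lt_top N (lt_top_iff_ne_top.2 hne)
    apply hf
    refine hco f fun g m => ?_
    have h3 := LinearMap.mem_ker.1 (hf' (hK g m))
    rwa [map_sub, sub_eq_zero] at h3
  have h3 : s ∈ N := by
    rw [htop]
    trivial
  rw [hN, Submodule.mem_comap, Ec_of_fixed ρ h2 hs, hS, Submodule.mem_sup] at h3
  obtain ⟨_, ⟨m1, rfl⟩, _, ⟨m2, rfl⟩, h4⟩ := h3
  exact ⟨m1, m2, h4.symm⟩

end

end Cfsg.Agent.R2.T1.N6D.I2
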